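import Cfsg.Agent.H505.E6Three.Proj

/-!
# S5927, `six_three` (K7): traces
-/

set_option autoImplicit false

namespace Cfsg.Agent.H505.E6Three

open Module Cfsg.Agent.H952.F4

section
variable {K V : Type*} [Field K] [AddCommGroup V] [Module K V]

theorem tr_conj (ρ : Representation K A6 V) (k g : A6) :
    LinearMap.trace K V (ρ (k * g * k⁻¹)) = LinearMap.trace K V (ρ g) := by
  rw [map_mul ρ, map_mul ρ, LinearMap.trace_mul_comm, ← mul_assoc, ← map_mul ρ, inv_mul_cancel, map_one, one_mul]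

theorem tr_zz_inv (ρ : Representation K A6 V) : LinearMap.trace K V (ρ (zz ^ 4)) = LinearMap.trace K V (ρ zz) := by
  rw [show zz ^ 4 = w0 * zz * w0⁻¹ by decide +kernel, tr_conj]

theorem tr_zz_inv2 (ρ : Representation K A6 V) :
    LinearMap.trace K V (ρ (zz ^ 3)) = LinearMap.trace K V (ρ (zz ^ 2)) := by
  rw [show zz ^ 3 = w0 * zz ^ 2 * w0⁻¹ by decide +kernel, tr_conj]

variable [CharP K 3] [FiniteDimensional K V]

theorem trace_five (ρ : Representation K A6 V) (hd : finrank K V = 27) (h5 : ev (ρ zz) 1 = 5) :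
    LinearMap.trace K V (ρ zz) + LinearMap.trace K V (ρ (zz ^ 2)) = -1 := by
  have h3 := three_eq K
  let S : Module.End K V := -∑ i : Fin 5, ρ (zz ^ (i : ℕ))
  have hS : ∀ v, S v = -∑ i : Fin 5, ρ (zz ^ (i : ℕ)) v := by
    intro v
    change -((∑ i : Fin 5, ρ (zz ^ (i : ℕ))) v) = _
    rw [LinearMap.sum_apply]
  have hz : ∀ i : Fin 5, zz * zz ^ (i : ℕ) = zz ^ ((i + 1 : Fin 5) : ℕ) := by decide +kernel
  have hp : LinearMap.IsProj (es (ρ zz) 1) S := by
    constructor
    · intro v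
      rw [es, Module.End.mem_eigenspace_iff, one_smul, hS, map_neg, map_sum]
      congr 1
      simp only [← rmul, hz]
      exact Equiv.sum_comp (Equiv.addRight (1 : Fin 5)) fun i => ρ (zz ^ (i : ℕ)) v
    · intro v hv
      rw [es, Module.End.mem_eigenspace_iff, one_smul] at hv
      have h1 : ∀ k : ℕ, ρ (zz ^ k) v = v := by
        intro k
        induction k with
        | zero => rw [pow_zero, rone]
        | succ k ih => rw [pow_succ, rmul, hv, ih]
      rw [hS, Finset.sum_congr rfl fun i _ => h1 _, Finset.sum_const, Finset.card_univ, Fintype.card_fin,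
        ← Nat.cast_smul_eq_nsmul K, ← neg_smul]
      rw [show (-((5 : ℕ) : K)) = 1 by push_cast; linear_combination (-2 : K) * h3, one_smul]
  have ht := hp.trace
  have e1 : LinearMap.trace K V S = -∑ i : Fin 5, LinearMap.trace K V (ρ (zz ^ (i : ℕ))) := by
    change LinearMap.trace K V (-∑ i : Fin 5, ρ (zz ^ (i : ℕ))) = _
    rw [map_neg, map_sum]
  have e2 : finrank K ↥(es (ρ zz) 1) = 5 := h5
  rw [e1, e2, Fin.sum_univ_five] at ht
  have e0 : LinearMap.trace K V (ρ (zz ^ ((0 : Fin 5) : ℕ))) = 0 := by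
    change LinearMap.trace K V (ρ (zz ^ 0)) = 0
    rw [pow_zero, map_one, LinearMap.trace_one, hd]
    push_cast
    linear_combination (9 : K) * h3
  have q1 : LinearMap.trace K V (ρ (zz ^ ((1 : Fin 5) : ℕ))) = LinearMap.trace K V (ρ zz) := by
    change LinearMap.trace K V (ρ (zz ^ 1)) = _
    rw [pow_one]
  have q2 : LinearMap.trace K V (ρ (zz ^ ((2 : Fin 5) : ℕ))) = LinearMap.trace K V (ρ (zz ^ 2)) := rfl
  have q3 : LinearMap.trace K V (ρ (zz ^ ((3 : Fin 5) : ℕ))) = LinearMap.trace K V (ρ (zz ^ 2)) := tr_zz_inv2 ρ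
  have q4 : LinearMap.trace K V (ρ (zz ^ ((4 : Fin 5) : ℕ))) = LinearMap.trace K V (ρ zz) := tr_zz_inv ρ
  rw [e0, q1, q2, q3, q4] at ht
  push_cast at ht
  linear_combination ht + (LinearMap.trace K V (ρ zz) + LinearMap.trace K V (ρ (zz ^ 2)) + 2) * h3

/-- the trace of `P ρ(c)` is zero -/
theorem trace_P_cc (ρ : Representation K A6 V) (hd : finrank K V = 27) (h5 : ev (ρ zz) 1 = 5)
    (h4 : ∀ g : A6, g * g ≠ 1 → g ^ 4 = 1 → LinearMap.trace K V (ρ g) = -1) :
    LinearMap.trace K V (P ρ * ρ cc) = 0 := by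
  have h3 := three_eq K
  have h1 : P ρ * ρ cc = ∑ i, ∑ b, ρ (D i b * cc) := by
    rw [P, Finset.sum_mul]
    refine Finset.sum_congr rfl fun i _ => ?_
    rw [Finset.sum_mul]
    exact Finset.sum_congr rfl fun b _ => (map_mul _ _ _).symm
  have h2 := trace_five ρ hd h5
  rw [h1, map_sum, Fin.sum_univ_five]
  simp only [Fintype.sum_bool, map_add]
  rw [h4 (D 0 true * cc) (by decide +kernel) (by decide +kernel),
    h4 (D 0 false * cc) (by decide +kernel) (by decide +kernel),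
    show D 1 false * cc = (w1 * cc * zz * cc) * zz ^ 2 * (w1 * cc * zz * cc)⁻¹ by decide +kernel,
    show D 2 false * cc = (cc⁻¹ * zz * d3 * cc⁻¹) * zz * (cc⁻¹ * zz * d3 * cc⁻¹)⁻¹ by decide +kernel,
    show D 3 false * cc = (d3⁻¹ * zz * zz * cc) * zz * (d3⁻¹ * zz * zz * cc)⁻¹ by decide +kernel,
    show D 4 false * cc = (zz * d3⁻¹ * cc) * zz ^ 2 * (zz * d3⁻¹ * cc)⁻¹ by decide +kernel,
    show D 1 true * cc = (cc * zz * cc * d3) * zz ^ 2 * (cc * zz * cc * d3)⁻¹ by decide +kernel,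
    show D 2 true * cc = (zz * d3 * zz * cc⁻¹) * zz * (zz * d3 * zz * cc⁻¹)⁻¹ by decide +kernel,
    show D 3 true * cc = (zz * d3 * cc) * zz * (zz * d3 * cc)⁻¹ by decide +kernel,
    show D 4 true * cc = (w1 * zz * cc⁻¹) * zz ^ 2 * (w1 * zz * cc⁻¹)⁻¹ by decide +kernel]
  simp only [tr_conj]
  linear_combination 4 * h2 - 2 * h3

end

section
variable {K V V' : Type*} [Field K] [CharP K 3] [AddCommGroup V] [Module K V] [FiniteDimensional K V]
  [AddCommGroup V'] [Module K V'] [FiniteDimensional K V']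

/-- the contradiction (3) -/
theorem kill (ρ : Representation K A6 V) (ρ' : Representation K A6 V') (B : V →ₗ[K] V' →ₗ[K] K)
    (hB : ∀ g v w, B (ρ g v) (ρ' g w) = B v w) (hnd : ∀ w, (∀ v, B v w = 0) → w = 0)
    (hd : finrank K V = 27) (h5 : ev (ρ zz) 1 = 5)
    (h4 : ∀ g : A6, g * g ≠ 1 → g ^ 4 = 1 → LinearMap.trace K V (ρ g) = -1) (hU : finrank K ↥(U ρ) = 4)
    (U1 : Submodule K V) (U1' : Submodule K V') (hU1 : U1 ≤ U ρ) (hU1' : U1' ≤ U ρ')
    (hc : ∀ u ∈ U1, P ρ (ρ cc u) = u) (hc' : ∀ u ∈ U1', P ρ' (ρ' cc⁻¹ u) = u)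
    (hz : ∀ u ∈ U1, ∀ w ∈ U1', B u w = 0) (hdim : 4 ≤ finrank K ↥U1 + finrank K ↥U1') : False := by
  have h3 := three_eq K
  -- the annihilator of `U1'` in `U`
  let b : ↥(U ρ) →ₗ[K] Module.Dual K ↥U1' :=
    (LinearMap.lcomp K K U1'.subtype) ∘ₗ B ∘ₗ (U ρ).subtype
  have hb : ∀ (u : ↥(U ρ)) (w : ↥U1'), b u w = B u w := fun _ _ => rfl
  have hbs : LinearMap.range b = ⊤ := by
    have hinj : Function.Injective b.flip := by
      rw [← LinearMap.ker_eq_bot, eq_bot_iff]
      intro w hw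
      have hw' := LinearMap.mem_ker.1 hw
      refine (Submodule.mem_bot K).2 (Subtype.ext (hnd w fun v => ?_))
      have e1 : B (P ρ v) w = 0 := by
        have := LinearMap.congr_fun hw' ⟨P ρ v, P_mem ρ v⟩
        exact this
      rw [P_adj hB, P_of_mem (hU1' w.2)] at e1
      exact e1
    apply Submodule.eq_top_of_finrank_eq
    have e3 : (LinearMap.range b).dualCoannihilator = ⊥ := by
      rw [eq_bot_iff]
      intro w hw
      rw [Submodule.mem_dualCoannihilator] at hw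
      refine (Submodule.mem_bot K).2 (hinj ?_)
      rw [map_zero]
      refine LinearMap.ext fun u => ?_
      exact hw (b u) ⟨u, rfl⟩
    have e4 := Subspace.finrank_add_finrank_dualCoannihilator_eq (LinearMap.range b)
    rw [e3, finrank_bot, add_zero] at e4
    rw [Subspace.dual_finrank_eq]
    exact e4
  have hk := LinearMap.finrank_range_add_finrank_ker b
  rw [hbs, finrank_top, Subspace.dual_finrank_eq, hU] at hk
  have hle : U1 ≤ (LinearMap.ker b).map (U ρ).subtype := by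
    intro u hu
    refine ⟨⟨u, hU1 hu⟩, ?_, rfl⟩
    rw [SetLike.mem_coe, LinearMap.mem_ker]
    refine LinearMap.ext fun w => ?_
    exact hz u hu w w.2
  have heq : U1 = (LinearMap.ker b).map (U ρ).subtype := by
    apply Submodule.eq_of_le_of_finrank_le hle
    rw [Submodule.finrank_map_subtype_eq]
    omega
  have hmem : ∀ u ∈ U ρ, (∀ w ∈ U1', B u w = 0) → u ∈ U1 := by
    intro u hu hw
    rw [heq]
    refine ⟨⟨u, hu⟩, ?_, rfl⟩
    rw [SetLike.mem_coe, LinearMap.mem_ker]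
    refine LinearMap.ext fun w => ?_
    exact hw w w.2
  -- the nilpotent operator
  let N : Module.End K V := P ρ * ρ cc * P ρ - P ρ
  have hN : ∀ v, N v = P ρ (ρ cc (P ρ v)) - P ρ v := fun _ => rfl
  have hN1 : ∀ v, N v ∈ U1 := by
    intro v
    apply hmem
    · rw [hN]
      exact sub_mem (P_mem ρ _) (P_mem ρ _)
    · intro w hw
      have e1 : B (ρ cc (P ρ v)) (P ρ' w) = B (P ρ v) w := by
        rw [P_of_mem (hU1' hw)]
        have e2 : B (ρ cc (P ρ v)) w = B (P ρ v) (ρ' cc⁻¹ w) := by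
          rw [← hB cc (P ρ v) (ρ' cc⁻¹ w), ← rmul, mul_inv_cancel, rone]
        rw [e2, P_adj hB, hc' w hw, P_adj hB, P_of_mem (hU1' hw)]
      rw [hN, map_sub, LinearMap.sub_apply, P_adj hB, e1, sub_self]
  have hN2 : ∀ u ∈ U1, N u = 0 := by
    intro u hu
    rw [hN, P_of_mem (hU1 hu), hc u hu, sub_self]
  have hnil : IsNilpotent N := by
    refine ⟨2, LinearMap.ext fun v => ?_⟩
    rw [pow_two]
    exact hN2 _ (hN1 v)
  have ht := (LinearMap.isNilpotent_trace_of_isNilpotent hnil).eq_zero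
  have ht1 : LinearMap.trace K V N = LinearMap.trace K V (P ρ * ρ cc) - LinearMap.trace K V (P ρ) := by
    change LinearMap.trace K V (P ρ * ρ cc * P ρ - P ρ) = _
    rw [map_sub, LinearMap.trace_mul_comm, ← mul_assoc]
    have : P ρ * P ρ = P ρ := LinearMap.ext fun v => P_P ρ v
    rw [this]
  have ht2 := (isProj ρ).trace
  rw [ht1, trace_P_cc ρ hd h5 h4, ht2, hU] at ht
  push_cast at ht
  have h1 : (1 : K) = 0 := by linear_combination -ht - h3
  exact one_ne_zero h1

end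

end Cfsg.Agent.H505.E6Three
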