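import Cfsg.Agent.H505.E6Three.KSeven

/-!
# S5927, `six_three` (K7): the contradiction, final part
-/

set_option autoImplicit false

namespace Cfsg.Agent.H505.E6Three

open Module Cfsg.Agent.H952.F4 Equiv

section
variable {K V V' : Type*} [Field K] [CharP K 3] [AddCommGroup V] [Module K V] [AddCommGroup V'] [Module K V']
  [FiniteDimensional K V] [FiniteDimensional K V'] {ρ : Representation K A6 V} {ρ' : Representation K A6 V'}
  {B : V →ₗ[K] V' →ₗ[K] K}

omit [CharP K 3] [FiniteDimensional K V] [FiniteDimensional K V'] in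
theorem adj (hB : ∀ g v w, B (ρ g v) (ρ' g w) = B v w) (g : A6) (v : V) (w : V') : B (ρ g v) w = B v (ρ' g⁻¹ w) := by
  rw [← hB g v (ρ' g⁻¹ w), ← rmul, mul_inv_cancel, rone]

omit [CharP K 3] [FiniteDimensional K V] [FiniteDimensional K V'] in
theorem adj' (hB : ∀ g v w, B (ρ g v) (ρ' g w) = B v w) (g : A6) (v : V) (w : V') : B v (ρ' g w) = B (ρ g⁻¹ v) w := by
  rw [adj hB, inv_inv]

/-- vectors fixed by `A₅` are norms -/
theorem norm_of_Fx (hd : finrank K V = 27) (h9 : ev (ρ d3) 1 = 9) {v : V} (hv : v ∈ Fx ρ) :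
    ∃ v', v = v' + ρ d3 v' + ρ (d3 * d3) v' := by
  have h1 : (ρ d3 : Module.End K V) ^ 3 = 1 := by
    rw [← map_pow, show d3 ^ 3 = 1 by decide +kernel, map_one]
  obtain ⟨v', hv'⟩ := exists_norm (ρ d3) h1 (by rw [hd, h9]) (hv d3 (by decide))
  exact ⟨v', by rw [rmul]; exact hv'⟩

/-- (o1) -/
theorem orth_one (hB : ∀ g v w, B (ρ g v) (ρ' g w) = B v w) (hd : finrank K V = 27) (h9 : ev (ρ d3) 1 = 9) {v : V}
    (hv : v ∈ Fx ρ) {w : V'} (hw : w ∈ Fx ρ') : B v w = 0 := by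
  have h3 := three_eq K
  obtain ⟨v', rfl⟩ := norm_of_Fx hd h9 hv
  rw [map_add, map_add, LinearMap.add_apply, LinearMap.add_apply, adj hB, adj hB, hw _ (by decide +kernel),
    hw _ (by decide +kernel)]
  linear_combination B v' w * h3

variable {α : A6 →* A6}

/-- (o2) -/
theorem orth_two (h0 : α w0 = w0) (h1 : α w1 = w1') (hd3 : α d3 = d3') (hα : ∀ g, α (α g) = g)
    (hB : ∀ g v w, B (ρ g v) (ρ' g w) = B v w) (hd : finrank K V = 27) (h9 : ev (ρ d3) 1 = 9)
    (hi : Representation.invariants (MonoidHom.comp ρ' α : Representation K A6 V') = ⊥) {v : V}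
    (hv : v ∈ Fx ρ) {w : V'} (hw : w ∈ Fx (MonoidHom.comp ρ' α : Representation K A6 V')) : B v w = 0 := by
  have h3 := three_eq K
  -- the sum over `V₄`
  have e1 : ∀ g : A6, (g : Perm (Fin 6)) 5 = 5 → B v (ρ' g w) = B v w := by
    intro g hg
    rw [adj' hB, hv]
    change (g : Perm (Fin 6))⁻¹ 5 = 5
    rw [Perm.inv_eq_iff_eq, hg]
  have e2 : B v (w + ρ' w0 w + ρ' w1 w + ρ' (w0 * w1) w) = B v w := by
    rw [map_add, map_add, map_add, e1 _ (by decide +kernel), e1 _ (by decide +kernel), e1 _ (by decide +kernel)]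
    linear_combination B v w * h3
  obtain ⟨v', hv'⟩ := norm_of_Fx hd h9 hv
  have e4 : ∀ y, B v y = B v' (y + ρ' d3⁻¹ y + ρ' (d3 * d3)⁻¹ y) := by
    intro y
    conv_lhs => rw [hv']
    rw [map_add, map_add, LinearMap.add_apply, LinearMap.add_apply, adj hB, adj hB, map_add, map_add]
  rw [← e2, e4]
  -- the six conjugates
  set c : Fin 6 → V' := cv (MonoidHom.comp ρ' α : Representation K A6 V') w with hc
  have hs : ∑ j, c j = 0 := cv_sum hi hw
  have ha : ∀ g : A6, ρ' g w = c ((α g : Perm (Fin 6)) 5) := by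
    intro g
    have := cv_act hw (α g) 5
    rw [cv_five] at this
    change ρ' (α (α g)) w = _ at this
    rwa [hα] at this
  have hw5 : w = c 5 := (cv_five _ w).symm
  have a0 : ρ' w0 w = c 5 := by
    rw [ha, h0]; congr 1
  have a1 : ρ' w1 w = c 4 := by
    rw [ha, h1]; congr 1
  have a2 : ρ' (w0 * w1) w = c 4 := by
    rw [ha, map_mul, h0, h1]; congr 1
  have hcg : ∀ (g : A6) (j : Fin 6), ρ' g (c j) = c ((α g : Perm (Fin 6)) j) := by
    intro g j
    have := cv_act hw (α g) j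
    change ρ' (α (α g)) _ = _ at this
    rwa [hα] at this
  have b1 : (α d3⁻¹ : Perm (Fin 6)) 5 = 1 := by rw [map_inv, hd3]; decide +kernel
  have b2 : (α d3⁻¹ : Perm (Fin 6)) 4 = 0 := by rw [map_inv, hd3]; decide +kernel
  have b3 : (α (d3 * d3)⁻¹ : Perm (Fin 6)) 5 = 2 := by rw [map_inv, map_mul, hd3]; decide +kernel
  have b4 : (α (d3 * d3)⁻¹ : Perm (Fin 6)) 4 = 3 := by rw [map_inv, map_mul, hd3]; decide +kernel
  have e3 : w + ρ' w0 w + ρ' w1 w + ρ' (w0 * w1) w + ρ' d3⁻¹ (w + ρ' w0 w + ρ' w1 w + ρ' (w0 * w1) w) +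
      ρ' (d3 * d3)⁻¹ (w + ρ' w0 w + ρ' w1 w + ρ' (w0 * w1) w) = ∑ j, c j + ∑ j, c j := by
    rw [a0, a1, a2, hw5]
    simp only [map_add, hcg, b1, b2, b3, b4, Fin.sum_univ_six]
    abel
  rw [e3, hs, add_zero, map_zero]

/-- two conditions -/
theorem fixed_of_both (hy : α w1 = w1') {v : V} (h1 : v ∈ Fx ρ)
    (h2 : v ∈ Fx (MonoidHom.comp ρ α : Representation K A6 V)) (hi : ρ.invariants = ⊥) : v = 0 := by
  have h4 : ρ w1' v = v := by
    have := h2 w1 (by decide)
    change ρ (α w1) v = v at this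
    rwa [hy] at this
  have e5 : ∀ j, cv ρ v j = v := by
    intro j
    by_cases hj : j = 5
    · rw [hj, cv_five]
    · -- an element fixing 5 and mapping 4 to j
      have key : ∀ j : Fin 6, j ≠ 5 → ∃ k : Fin 5 × Fin 2, ((zz ^ (k.1 : ℕ) : A6) : Perm (Fin 6)) 4 = j := by
        decide +kernel
      obtain ⟨k, hk⟩ := key j hj
      have e1 : cv ρ v 4 = v := by
        have h45 : (w1' : Perm (Fin 6)) 5 = 4 := by decide
        have := cv_act h1 w1' 5
        rw [cv_five, h45, h4] at this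
        exact this.symm
      have e2 := cv_act h1 (zz ^ (k.1 : ℕ)) 4
      rw [hk, e1] at e2
      rw [← e2]
      apply h1
      have : ∀ i : Fin 5, ((zz ^ (i : ℕ) : A6) : Perm (Fin 6)) 5 = 5 := by decide +kernel
      exact this _
  rw [← Submodule.mem_bot K, ← hi, Representation.mem_invariants]
  intro g
  have h6 := cv_act h1 g 5
  rw [e5, e5] at h6
  exact h6

/-- `P` for the twisted representation -/
theorem P_twist (hz : α zz = zz) (h0 : α w0 = w0) (ρ : Representation K A6 V) :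
    P (MonoidHom.comp ρ α : Representation K A6 V) = P ρ := by
  have hD : ∀ (i : Fin 5) (b : Bool), α (D i b) = D i b := by
    intro i b
    cases b
    · change α (zz ^ (i : ℕ) * 1) = zz ^ (i : ℕ) * 1
      rw [mul_one, map_pow, hz]
    · change α (zz ^ (i : ℕ) * w0) = zz ^ (i : ℕ) * w0
      rw [map_mul, map_pow, hz, h0]
  refine Finset.sum_congr rfl fun i _ => Finset.sum_congr rfl fun b _ => ?_
  exact congrArg ρ (hD i b)

theorem sup_le_U (hz : α zz = zz) (h0 : α w0 = w0) (ρ : Representation K A6 V) :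
    Fx ρ ⊔ Fx (MonoidHom.comp ρ α : Representation K A6 V) ≤ U ρ := by
  refine sup_le ?_ ?_
  · intro v hv
    exact mem_U.2 ⟨hv _ (by decide +kernel), hv _ (by decide +kernel)⟩
  · intro v hv
    have h1 := hv zz (by decide +kernel)
    have h2 := hv w0 (by decide +kernel)
    change ρ (α zz) v = v at h1
    change ρ (α w0) v = v at h2
    rw [hz] at h1
    rw [h0] at h2
    exact mem_U.2 ⟨h1, h2⟩

theorem P_sup (hz : α zz = zz) (h0 : α w0 = w0) (hα : ∀ g, α (α g) = g) {ρ : Representation K A6 V}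
    (hi : ρ.invariants = ⊥) (hi2 : Representation.invariants (MonoidHom.comp ρ α : Representation K A6 V) = ⊥)
    (g : A6) : ∀ u ∈ Fx ρ ⊔ Fx (MonoidHom.comp ρ α : Representation K A6 V), P ρ (ρ g u) = u := by
  intro u hu
  obtain ⟨a, ha, b, hb, rfl⟩ := Submodule.mem_sup.1 hu
  have h1 := P_rho hi ha g
  have h2 := P_rho hi2 hb (α g)
  rw [P_twist hz h0] at h2
  change P ρ (ρ (α (α g)) b) = b at h2
  rw [hα] at h2
  rw [map_add, map_add, h1, h2]

theorem finrank_sup (h1 : α w1 = w1') {ρ : Representation K A6 V} (hi : ρ.invariants = ⊥) :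
    finrank K ↥(Fx ρ ⊔ Fx (MonoidHom.comp ρ α : Representation K A6 V)) =
      finrank K ↥(Fx ρ) + finrank K ↥(Fx (MonoidHom.comp ρ α : Representation K A6 V)) := by
  have h2 := Submodule.finrank_sup_add_finrank_inf_eq (Fx ρ) (Fx (MonoidHom.comp ρ α : Representation K A6 V))
  have h3 : Fx ρ ⊓ Fx (MonoidHom.comp ρ α : Representation K A6 V) = ⊥ := by
    rw [eq_bot_iff]
    intro v hv
    exact (Submodule.mem_bot K).2 (fixed_of_both h1 hv.1 hv.2 hi)
  rw [h3, finrank_bot] at h2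
  exact h2

/-- the transfer for a module without fixed vectors -/
theorem transfer' (h0 : α w0 = w0) (hy : α yy = yy') (hα : ∀ g, α (α g) = g)
    (hB : ∀ g v w, B (ρ g v) (ρ' g w) = B v w) (n1 : ∀ v, (∀ w, B v w = 0) → v = 0)
    (n2 : ∀ w, (∀ v, B v w = 0) → w = 0) (hd : finrank K V = 27) (hi : ρ.invariants = ⊥) (hi' : ρ'.invariants = ⊥)
    (two : ev (ρ w0) 1 = 15) (four : ev (ρ yy) 1 = 7) (five : ev (ρ (w0 * yy)) 1 = 5) :
    finrank K ↥(Fx ρ) ≤ finrank K ↥(Fx (MonoidHom.comp ρ α : Representation K A6 V)) := by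
  refine transfer h0 hy hα ρ hi ?_ (by rw [two, four, five, hd])
  have h1 := dual_inv_le ρ ρ' B hB n1 n2
  rw [hi', finrank_bot, Nat.le_zero, Submodule.finrank_eq_zero] at h1
  exact h1

/-- **K7** -/
theorem Hyp.false (H : Hyp ρ ρ' B) : False := by
  obtain ⟨α, hα, hz, h0, h1, hd3, hy⟩ := exists_alpha
  have h3 := three_eq K
  have H2 := H.twist hα
  -- elements
  have q2 : w0 ≠ 1 ∧ w0 * w0 = 1 := by constructor <;> decide +kernel
  have q4 : yy * yy ≠ 1 ∧ yy ^ 4 = 1 := by constructor <;> decide +kernel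
  have q5 : w0 * yy ≠ 1 ∧ (w0 * yy) ^ 5 = 1 := by constructor <;> decide +kernel
  have q5' : zz ≠ 1 ∧ zz ^ 5 = 1 := by constructor <;> decide +kernel
  have hd' : finrank K V' = 27 := by rw [finrank_dual_eq H.nd1 H.nd2, H.dim]
  have hB' : ∀ (g : A6) (w : V') (v : V), B.flip (ρ' g w) (ρ g v) = B.flip w v := fun g w v => H.inv g v w
  -- the transfers
  have t1 : finrank K ↥(Fx ρ) ≤ finrank K ↥(Fx (MonoidHom.comp ρ α : Representation K A6 V)) :=
    transfer' h0 hy hα H.inv H.nd1 H.nd2 H.dim H.fix H.fix' (H.two _ q2.1 q2.2) (H.four _ q4.1 q4.2)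
      (H.five _ q5.1 q5.2)
  have t2 : finrank K ↥(Fx (MonoidHom.comp ρ α : Representation K A6 V)) ≤ finrank K ↥(Fx ρ) := by
    have := transfer' h0 hy hα H2.inv H2.nd1 H2.nd2 H2.dim H2.fix H2.fix' (H2.two _ q2.1 q2.2) (H2.four _ q4.1 q4.2)
      (H2.five _ q5.1 q5.2)
    rwa [Fx_twist ρ hα] at this
  have t1' : finrank K ↥(Fx ρ') ≤ finrank K ↥(Fx (MonoidHom.comp ρ' α : Representation K A6 V')) := by
    refine transfer' (ρ := ρ') (ρ' := ρ) (B := B.flip) h0 hy hα hB' H.nd2 H.nd1 hd' H.fix' H.fix ?_ ?_ ?_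
    · rw [ev_dual H.inv H.nd1 H.nd2]; exact H.two _ q2.1 q2.2
    · rw [ev_dual H.inv H.nd1 H.nd2]; exact H.four _ q4.1 q4.2
    · rw [ev_dual H.inv H.nd1 H.nd2]; exact H.five _ q5.1 q5.2
  have t2' : finrank K ↥(Fx (MonoidHom.comp ρ' α : Representation K A6 V')) ≤ finrank K ↥(Fx ρ') := by
    have := transfer' (ρ := (MonoidHom.comp ρ' α : Representation K A6 V'))
      (ρ' := (MonoidHom.comp ρ α : Representation K A6 V)) (B := B.flip) h0 hy hα (fun g w v => H2.inv g v w) H2.nd2 H2.nd1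
      hd' H2.fix' H2.fix (by rw [ev_dual H2.inv H2.nd1 H2.nd2]; exact H2.two _ q2.1 q2.2)
      (by rw [ev_dual H2.inv H2.nd1 H2.nd2]; exact H2.four _ q4.1 q4.2)
      (by rw [ev_dual H2.inv H2.nd1 H2.nd2]; exact H2.five _ q5.1 q5.2)
    rwa [Fx_twist ρ' hα] at this
  -- the dimension of `U`
  have hU : finrank K ↥(U ρ) = 4 := by
    have n2 : (2 : K) ≠ 0 := fun h2 => one_ne_zero (α := K) (by linear_combination h3 - h2)
    have n5 : ((5 : ℕ) : K) ≠ 0 := fun h2 => one_ne_zero (α := K) (by push_cast at h2; linear_combination 2 * h3 - h2)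
    have := Eig.dihedral n2 ρ (z := zz) (s := w0) (m := 5) (by decide) n5 q5'.2 q2.2 (by decide +kernel) (Or.inl rfl)
    rw [H.dim, H.two _ q2.1 q2.2, H.five _ q5'.1 q5'.2] at this
    change finrank K ↥(es (ρ zz) 1 ⊓ es (ρ w0) 1) = 4
    omega
  have s1 := finrank_sup h1 H.fix
  have s2 := finrank_sup (ρ := ρ') h1 H.fix'
  have z5 := H.five _ q5'.1 q5'.2
  by_cases c1 : 2 ≤ finrank K ↥(Fx ρ)
  · refine kill ρ ρ' B H.inv H.nd2 H.dim z5 H.tr hU (Fx ρ ⊔ Fx (MonoidHom.comp ρ α : Representation K A6 V)) ⊥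
      (sup_le_U hz h0 ρ) bot_le (P_sup hz h0 hα H.fix H2.fix cc) ?_ ?_ ?_
    · intro u hu
      rw [(Submodule.mem_bot K).1 hu, map_zero, map_zero]
    · intro u _ w hw
      rw [(Submodule.mem_bot K).1 hw, map_zero]
    · rw [finrank_bot, s1]; omega
  by_cases c2 : 2 ≤ finrank K ↥(Fx ρ')
  · refine kill ρ ρ' B H.inv H.nd2 H.dim z5 H.tr hU ⊥ (Fx ρ' ⊔ Fx (MonoidHom.comp ρ' α : Representation K A6 V'))
      bot_le (sup_le_U hz h0 ρ') ?_ (P_sup hz h0 hα H.fix' H2.fix' cc⁻¹) ?_ ?_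
    · intro u hu
      rw [(Submodule.mem_bot K).1 hu, map_zero, map_zero]
    · intro u hu w _
      rw [(Submodule.mem_bot K).1 hu, map_zero, LinearMap.zero_apply]
    · rw [finrank_bot, s2]; omega
  -- now all dimensions are one and the elements of order 3 act freely
  have f1 := H.scott5
  have f2 := H2.scott5
  have f3 : 27 ≤ 3 * ev (ρ d3) 1 := by
    have : Fact (Nat.Prime 3) := ⟨by norm_num⟩
    have := Eig.le_mul_ev 3 (T := (ρ d3 : Module.End K V)) (by
      rw [← map_pow, show d3 ^ 3 = 1 by decide +kernel, map_one])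
    rwa [H.dim] at this
  have f4 : 27 ≤ 3 * ev ((MonoidHom.comp ρ α : Representation K A6 V) d3) 1 := by
    have : Fact (Nat.Prime 3) := ⟨by norm_num⟩
    have := Eig.le_mul_ev 3 (T := ((MonoidHom.comp ρ α : Representation K A6 V) d3 : Module.End K V)) (by
      rw [← map_pow, show d3 ^ 3 = 1 by decide +kernel, map_one])
    rwa [H.dim] at this
  have e1 : ev (ρ d3) 1 = 9 := by omega
  have e2 : ev ((MonoidHom.comp ρ α : Representation K A6 V) d3) 1 = 9 := by omega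
  refine kill ρ ρ' B H.inv H.nd2 H.dim z5 H.tr hU (Fx ρ ⊔ Fx (MonoidHom.comp ρ α : Representation K A6 V))
    (Fx ρ' ⊔ Fx (MonoidHom.comp ρ' α : Representation K A6 V')) (sup_le_U hz h0 ρ) (sup_le_U hz h0 ρ')
    (P_sup hz h0 hα H.fix H2.fix cc) (P_sup hz h0 hα H.fix' H2.fix' cc⁻¹) ?_ (by rw [s1, s2]; omega)
  intro u hu w hw
  obtain ⟨a, ha, b, hb, rfl⟩ := Submodule.mem_sup.1 hu
  obtain ⟨a', ha', b', hb', rfl⟩ := Submodule.mem_sup.1 hw
  have o1 : B a a' = 0 := orth_one H.inv H.dim e1 ha ha'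
  have o2 : B b b' = 0 := orth_one H2.inv H2.dim e2 hb hb'
  have o3 : B a b' = 0 := orth_two h0 h1 hd3 hα H.inv H.dim e1 H2.fix' ha hb'
  have o4 : B b a' = 0 := by
    have e : (MonoidHom.comp (MonoidHom.comp ρ' α) α : Representation K A6 V') = ρ' :=
      MonoidHom.ext fun g => congrArg ρ' (hα g)
    refine orth_two (ρ' := (MonoidHom.comp ρ' α : Representation K A6 V')) h0 h1 hd3 hα H2.inv H2.dim e2 ?_ hb ?_
    · rw [e]; exact H.fix'
    · rw [e]; exact ha'
  simp only [map_add, LinearMap.add_apply, o1, o2, o3, o4, add_zero]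

end

end Cfsg.Agent.H505.E6Three
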