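import Cfsg.Agent.H505.E6Three.Main

/-!
# S5927, `six_three` (K7): the contradiction
-/

set_option autoImplicit false

namespace Cfsg.Agent.H505.E6Three

open Module Cfsg.Agent.H952.F4 Equiv

/-- the situation K7: `f₂ = 15`, `f₄ = 7` (trace `-1`), `f₅ = 5`, no fixed vectors -/
structure Hyp {K V V' : Type*} [Field K] [AddCommGroup V] [Module K V] [AddCommGroup V'] [Module K V']
    (ρ : Representation K A6 V) (ρ' : Representation K A6 V') (B : V →ₗ[K] V' →ₗ[K] K) : Prop where
  inv : ∀ g v w, B (ρ g v) (ρ' g w) = B v w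
  nd1 : ∀ v, (∀ w, B v w = 0) → v = 0
  nd2 : ∀ w, (∀ v, B v w = 0) → w = 0
  dim : finrank K V = 27
  fix : ρ.invariants = ⊥
  fix' : ρ'.invariants = ⊥
  two : ∀ g : A6, g ≠ 1 → g * g = 1 → ev (ρ g) 1 = 15
  four : ∀ g : A6, g * g ≠ 1 → g ^ 4 = 1 → ev (ρ g) 1 = 7
  tr : ∀ g : A6, g * g ≠ 1 → g ^ 4 = 1 → LinearMap.trace K V (ρ g) = -1
  five : ∀ g : A6, g ≠ 1 → g ^ 5 = 1 → ev (ρ g) 1 = 5

section
variable {K V V' : Type*} [Field K] [AddCommGroup V] [Module K V] [AddCommGroup V'] [Module K V']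
  [FiniteDimensional K V] [FiniteDimensional K V'] {ρ : Representation K A6 V} {ρ' : Representation K A6 V'}
  {B : V →ₗ[K] V' →ₗ[K] K}

theorem finrank_dual_eq (h1 : ∀ v, (∀ w, B v w = 0) → v = 0) (h2 : ∀ w, (∀ v, B v w = 0) → w = 0) :
    finrank K V' = finrank K V := by
  have hinj : Function.Injective B.flip := by
    rw [← LinearMap.ker_eq_bot, eq_bot_iff]
    intro w hw
    refine (Submodule.mem_bot K).2 (h2 w fun v => ?_)
    exact LinearMap.congr_fun (LinearMap.mem_ker.1 hw) v
  have hinj1 : Function.Injective B := by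
    rw [← LinearMap.ker_eq_bot, eq_bot_iff]
    intro v hv
    refine (Submodule.mem_bot K).2 (h1 v fun w => ?_)
    exact LinearMap.congr_fun (LinearMap.mem_ker.1 hv) w
  have e1 : finrank K V ≤ finrank K V' := by
    have := LinearMap.finrank_le_finrank_of_injective (f := B) hinj1
    rwa [Subspace.dual_finrank_eq] at this
  have e2 : finrank K V' ≤ finrank K V := by
    have := LinearMap.finrank_le_finrank_of_injective (f := B.flip) hinj
    rwa [Subspace.dual_finrank_eq] at this
  omega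

theorem ev_dual_le (hB : ∀ g v w, B (ρ g v) (ρ' g w) = B v w) (h1 : ∀ v, (∀ w, B v w = 0) → v = 0)
    (h2 : ∀ w, (∀ v, B v w = 0) → w = 0) (g : A6) : ev (ρ' g) 1 ≤ ev (ρ g) 1 := by
  -- the fixed space of `ρ' g` annihilates the range of `ρ g - 1`
  have hinj : Function.Injective B.flip := by
    rw [← LinearMap.ker_eq_bot, eq_bot_iff]
    intro w hw
    refine (Submodule.mem_bot K).2 (h2 w fun v => ?_)
    exact LinearMap.congr_fun (LinearMap.mem_ker.1 hw) v
  let R : Submodule K V := LinearMap.range (ρ g - 1 : Module.End K V)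
  have hle : (es (ρ' g) 1).map (B.flip : V' →ₗ[K] Module.Dual K V) ≤ R.dualAnnihilator := by
    rintro _ ⟨w, hw, rfl⟩
    rw [Submodule.mem_dualAnnihilator]
    rintro _ ⟨v, rfl⟩
    change B (ρ g v - v) w = 0
    have hw' : ρ' g w = w := by
      have := Module.End.mem_eigenspace_iff.1 hw
      rwa [one_smul] at this
    rw [map_sub, LinearMap.sub_apply]
    conv_lhs => enter [1]; rw [← hw']
    rw [hB, sub_self]
  have e1 := Submodule.finrank_mono hle
  have e2 : finrank K ↥R + finrank K ↥R.dualAnnihilator = finrank K V :=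
    Subspace.finrank_add_finrank_dualAnnihilator_eq R
  have e3 : finrank K ↥R + ev (ρ g) 1 = finrank K V := Scott.rank_add_ev (ρ g)
  have e4 : finrank K ↥((es (ρ' g) 1).map (B.flip : V' →ₗ[K] Module.Dual K V)) = ev (ρ' g) 1 := by
    exact LinearEquiv.finrank_eq (Submodule.equivMapOfInjective _ hinj _).symm
  have e5 : finrank K ↥R.dualAnnihilator = ev (ρ g) 1 := by omega
  exact e4.symm.le.trans (e1.trans e5.le)

theorem ev_dual (hB : ∀ g v w, B (ρ g v) (ρ' g w) = B v w) (h1 : ∀ v, (∀ w, B v w = 0) → v = 0)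
    (h2 : ∀ w, (∀ v, B v w = 0) → w = 0) (g : A6) : ev (ρ' g) 1 = ev (ρ g) 1 :=
  le_antisymm (ev_dual_le hB h1 h2 g)
    (ev_dual_le (ρ := ρ') (ρ' := ρ) (B := B.flip) (fun g w v => hB g v w) h2 h1 g)

variable {α : A6 →* A6}

theorem Hyp.twist (H : Hyp ρ ρ' B) (hα : ∀ g, α (α g) = g) :
    Hyp (MonoidHom.comp ρ α : Representation K A6 V) (MonoidHom.comp ρ' α : Representation K A6 V') B where
  inv g v w := H.inv (α g) v w
  nd1 := H.nd1
  nd2 := H.nd2
  dim := H.dim
  fix := by
    rw [← H.fix]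
    ext v
    rw [Representation.mem_invariants, Representation.mem_invariants]
    constructor
    · intro h g
      have := h (α g)
      change ρ (α (α g)) v = v at this
      rwa [hα] at this
    · intro h g
      exact h (α g)
  fix' := by
    rw [← H.fix']
    ext v
    rw [Representation.mem_invariants, Representation.mem_invariants]
    constructor
    · intro h g
      have := h (α g)
      change ρ' (α (α g)) v = v at this
      rwa [hα] at this
    · intro h g
      exact h (α g)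
  two g h1 h2 := by
    refine H.two (α g) ?_ (by rw [← map_mul, h2, map_one])
    intro h3
    apply h1
    rw [← hα g, h3, map_one]
  four g h1 h2 := by
    refine H.four (α g) ?_ (by rw [← map_pow, h2, map_one])
    intro h3
    apply h1
    rw [← hα (g * g), map_mul, h3, map_one]
  tr g h1 h2 := by
    refine H.tr (α g) ?_ (by rw [← map_pow, h2, map_one])
    intro h3
    apply h1
    rw [← hα (g * g), map_mul, h3, map_one]
  five g h1 h2 := by
    refine H.five (α g) ?_ (by rw [← map_pow, h2, map_one])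
    intro h3
    apply h1
    rw [← hα g, h3, map_one]

theorem Fx_twist (ρ : Representation K A6 V) (hα : ∀ g, α (α g) = g) :
    Fx (MonoidHom.comp (MonoidHom.comp ρ α) α : Representation K A6 V) = Fx ρ := by
  have : (MonoidHom.comp (MonoidHom.comp ρ α) α : Representation K A6 V) = ρ :=
    MonoidHom.ext fun g => congrArg ρ (hα g)
  rw [this]

theorem pow_of_ct {n : ℕ} {k : ℕ} (g : ↥(alternatingGroup (Fin n))) (h : (g : Perm (Fin n)).cycleType = {k}) :
    g ^ k = 1 := by
  apply Subtype.ext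
  have h1 := Perm.lcm_cycleType (g : Perm (Fin n))
  rw [h] at h1
  have h2 : k = orderOf (g : Perm (Fin n)) := by rw [← h1]; simp
  change (g : Perm (Fin n)) ^ k = 1
  rw [h2]
  exact pow_orderOf_eq_one _

theorem ne_of_ct {n : ℕ} {m : Multiset ℕ} (hm : m ≠ 0) (g : ↥(alternatingGroup (Fin n)))
    (h : (g : Perm (Fin n)).cycleType = m) : g ≠ 1 := by
  rintro rfl
  apply hm
  rw [← h]
  exact Perm.cycleType_one

/-- Scott's lemma for `A₅` -/
theorem Hyp.scott5 (H : Hyp ρ ρ' B) :
    15 + ev (ρ d3) 1 + 5 ≤ 27 + finrank K ↥(Fx ρ) + finrank K ↥(Fx ρ') := by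
  obtain ⟨x, y, hg, hx, hy, hxy⟩ := Gen.gen5
  have h1 := Scott.scott (MonoidHom.comp ρ io : Representation K _ V) hg
  have h2 := dual_inv_le (MonoidHom.comp ρ io : Representation K _ V) (MonoidHom.comp ρ' io : Representation K _ V') B
    (fun g v w => H.inv (io g) v w) H.nd1 H.nd2
  rw [inv_io ρ] at h1
  rw [inv_io ρ'] at h2
  have e1 : ev (ρ (io x)) 1 = 15 := by
    refine H.two _ (ne_of_ct (m := {2, 2}) (by decide) _ (by rw [ct_io, hx])) ?_
    have h3 := Perm.lcm_cycleType (io x : Perm (Fin 6))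
    rw [ct_io, hx] at h3
    apply Subtype.ext
    change (io x : Perm (Fin 6)) * (io x : Perm (Fin 6)) = 1
    rw [← pow_two, ← orderOf_dvd_iff_pow_eq_one, ← h3]
    decide
  have e2 : ev (ρ (io (x * y))) 1 = 5 :=
    H.five _ (ne_of_ct (m := {5}) (by decide) _ (by rw [ct_io, hxy])) (pow_of_ct _ (by rw [ct_io, hxy]))
  have e3 : ev (ρ (io y)) 1 = ev (ρ d3) 1 := by
    have hc1 : ((io y : A6) : Perm (Fin 6)).IsThreeCycle := by
      rw [Perm.IsThreeCycle, ct_io, hy]
    have hc2 : (d3 : Perm (Fin 6)).IsThreeCycle := by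
      change (swap 1 2 * swap 2 3 : Perm (Fin 6)).IsThreeCycle
      rw [swap_comm 1 2]
      exact Perm.isThreeCycle_swap_mul_swap_same (by decide) (by decide) (by decide)
    obtain ⟨k, hk⟩ := isConj_iff.1 (alternatingGroup.isThreeCycle_isConj (by simp) hc2 hc1)
    rw [← hk, ev_conj]
  change ev (ρ (io x)) 1 + ev (ρ (io y)) 1 + ev (ρ (io (x * y))) 1 ≤ _ at h1
  rw [e1, e2, e3, H.dim] at h1
  omega

end

end Cfsg.Agent.H505.E6Three
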