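import Cfsg.Agent.H505.E6Three.Proj

/-!
# S5927, `six_three` (K7): the transfer between the two classes of `A₅`
-/

set_option autoImplicit false

namespace Cfsg.Agent.H505.E6Three

open Module Cfsg.Agent.H952.F4

/-- the coefficients -/
def DD : Fin 6 → Fin 6 → ℤ :=
  ![![1, 0, -1, 0, -1, 1], ![0, 1, 0, -1, -1, 1], ![0, 1, -1, 0, 1, -1], ![1, 0, 0, -1, 1, -1], ![1, 1, -1, -1, 0, 0],
    ![0, 0, 0, 0, 0, 0]]

theorem perm_inv (g : Equiv.Perm (Fin 6)) (k : Fin 6) : g⁻¹ (g k) = k := g.symm_apply_apply k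
theorem perm_inv' (g : Equiv.Perm (Fin 6)) (k : Fin 6) : g (g⁻¹ k) = k := g.apply_symm_apply k

section
variable {K V : Type*} [Field K] [CharP K 3] [AddCommGroup V] [Module K V]

theorem three_zsmul (K : Type*) {V : Type*} [Field K] [CharP K 3] [AddCommGroup V] [Module K V] (v : V) :
    (3 : ℤ) • v = 0 := by
  rw [← Int.cast_smul_eq_zsmul K]
  rw [show ((3 : ℤ) : K) = 0 by push_cast; exact three_eq K, zero_smul]

theorem sum_zero (K : Type*) {V : Type*} [Field K] [CharP K 3] [AddCommGroup V] [Module K V] (c : Fin 6 → ℤ)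
    (u : Fin 6 → V) (hs : ∑ k, u k = 0) (hc : ∀ k, (3 : ℤ) ∣ c k - c 0) :
    ∑ k, c k • u k = 0 := by
  have h1 : ∀ k, c k • u k = c 0 • u k := by
    intro k
    obtain ⟨m, hm⟩ := hc k
    have : c k = c 0 + 3 * m := by linarith
    rw [this, add_smul, mul_comm, mul_smul, three_zsmul K, smul_zero, add_zero]
  rw [Finset.sum_congr rfl fun k _ => h1 k, ← Finset.smul_sum, hs, smul_zero]

/-- the vectors `d_j` -/
def dj (ρ : Representation K A6 V) (v : V) (j : Fin 6) : V := ∑ k, DD j k • cv ρ v k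

omit [CharP K 3] in
theorem dj_five (ρ : Representation K A6 V) (v : V) : dj ρ v 5 = 0 := by
  rw [dj]
  refine Finset.sum_eq_zero fun k _ => ?_
  have : DD 5 k = 0 := by revert k; decide
  rw [this, zero_smul]

theorem E_of {ρ : Representation K A6 V} (hi : ρ.invariants = ⊥) {v : V} (hv : v ∈ Fx ρ) (g h : A6)
    (hc : ∀ j k : Fin 6, (3 : ℤ) ∣ (DD j ((g : Equiv.Perm (Fin 6))⁻¹ k) - DD ((h : Equiv.Perm (Fin 6)) j) k +
      DD ((h : Equiv.Perm (Fin 6)) 5) k) - (DD j ((g : Equiv.Perm (Fin 6))⁻¹ 0) - DD ((h : Equiv.Perm (Fin 6)) j) 0 +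
      DD ((h : Equiv.Perm (Fin 6)) 5) 0)) (j : Fin 6) :
    ρ g (dj ρ v j) = dj ρ v ((h : Equiv.Perm (Fin 6)) j) - dj ρ v ((h : Equiv.Perm (Fin 6)) 5) := by
  have h1 : ρ g (dj ρ v j) = ∑ k, DD j ((g : Equiv.Perm (Fin 6))⁻¹ k) • cv ρ v k := by
    rw [dj, map_sum]
    rw [← Equiv.sum_comp (g : Equiv.Perm (Fin 6)) (fun k => DD j ((g : Equiv.Perm (Fin 6))⁻¹ k) • cv ρ v k)]
    refine Finset.sum_congr rfl fun k _ => ?_
    rw [map_zsmul, cv_act hv, perm_inv]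
  have h2 := sum_zero K _ (cv ρ v) (cv_sum hi hv) (hc j)
  simp only [add_smul, sub_smul, Finset.sum_add_distrib, Finset.sum_sub_distrib] at h2
  rw [h1]
  change _ = (∑ k, DD ((h : Equiv.Perm (Fin 6)) j) k • cv ρ v k) - ∑ k, DD ((h : Equiv.Perm (Fin 6)) 5) k • cv ρ v k
  rw [← sub_eq_zero, ← h2]
  abel

theorem E_w0 : ∀ j k : Fin 6, (3 : ℤ) ∣ (DD j ((w0 : Equiv.Perm (Fin 6))⁻¹ k) - DD ((w0 : Equiv.Perm (Fin 6)) j) k +
      DD ((w0 : Equiv.Perm (Fin 6)) 5) k) - (DD j ((w0 : Equiv.Perm (Fin 6))⁻¹ 0) - DD ((w0 : Equiv.Perm (Fin 6)) j) 0 +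
      DD ((w0 : Equiv.Perm (Fin 6)) 5) 0) := by decide +kernel

theorem E_yy : ∀ j k : Fin 6, (3 : ℤ) ∣ (DD j ((yy : Equiv.Perm (Fin 6))⁻¹ k) - DD ((yy' : Equiv.Perm (Fin 6)) j) k +
      DD ((yy' : Equiv.Perm (Fin 6)) 5) k) - (DD j ((yy : Equiv.Perm (Fin 6))⁻¹ 0) - DD ((yy' : Equiv.Perm (Fin 6)) j) 0 +
      DD ((yy' : Equiv.Perm (Fin 6)) 5) 0) := by decide +kernel

variable {α : A6 →* A6}

/-- the action on the vectors `d_j` -/
theorem E_all (h0 : α w0 = w0) (hy : α yy = yy') {ρ : Representation K A6 V} (hi : ρ.invariants = ⊥) {v : V}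
    (hv : v ∈ Fx ρ) (g : A6) : ∀ j : Fin 6,
    ρ g (dj ρ v j) = dj ρ v ((α g : Equiv.Perm (Fin 6)) j) - dj ρ v ((α g : Equiv.Perm (Fin 6)) 5) := by
  refine Scott.fix_all (P := fun g => ∀ j : Fin 6, ρ g (dj ρ v j) =
    dj ρ v ((α g : Equiv.Perm (Fin 6)) j) - dj ρ v ((α g : Equiv.Perm (Fin 6)) 5)) gen_xy ?_ ?_ ?_ ?_ ?_ g
  · intro j
    rw [h0]
    exact E_of hi hv w0 w0 E_w0 j
  · intro j
    rw [hy]
    exact E_of hi hv yy yy' E_yy j
  · intro j
    rw [map_one α, rone]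
    change dj ρ v j = dj ρ v j - dj ρ v 5
    rw [dj_five, sub_zero]
  · intro a b ha hb j
    rw [rmul, hb, map_sub, ha, ha, map_mul α]
    change _ = dj ρ v ((α a : Equiv.Perm (Fin 6)) ((α b : Equiv.Perm (Fin 6)) j)) -
      dj ρ v ((α a : Equiv.Perm (Fin 6)) ((α b : Equiv.Perm (Fin 6)) 5))
    abel
  · intro a ha j
    have e1 : ∀ i, (α a : Equiv.Perm (Fin 6)) ((α a⁻¹ : Equiv.Perm (Fin 6)) i) = i := by
      intro i
      rw [map_inv]
      exact perm_inv' _ _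
    have e2 : ∀ i, ρ a⁻¹ (ρ a (dj ρ v i)) = dj ρ v i := fun i => rinv ρ a _
    have h1 := ha ((α a⁻¹ : Equiv.Perm (Fin 6)) j)
    have h2 := ha ((α a⁻¹ : Equiv.Perm (Fin 6)) 5)
    rw [e1] at h1 h2
    rw [dj_five, zero_sub] at h2
    have h3 : dj ρ v j = ρ a (dj ρ v ((α a⁻¹ : Equiv.Perm (Fin 6)) j)) - ρ a (dj ρ v ((α a⁻¹ : Equiv.Perm (Fin 6)) 5)) := by
      rw [h1, h2]; abel
    rw [h3, map_sub, e2, e2]

/-- the cocycle -/
def dl (α : A6 →* A6) (ρ : Representation K A6 V) (v : V) (g : A6) : V := dj ρ v ((α g : Equiv.Perm (Fin 6)) 5)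

theorem dl_mul (h0 : α w0 = w0) (hy : α yy = yy') {ρ : Representation K A6 V} (hi : ρ.invariants = ⊥) {v : V}
    (hv : v ∈ Fx ρ) (g h : A6) : ρ g (dl α ρ v h) = dl α ρ v (g * h) - dl α ρ v g := by
  rw [dl, E_all h0 hy hi hv, dl, map_mul]
  rfl

omit [CharP K 3] in
theorem dl_one (ρ : Representation K A6 V) (v : V) : dl α ρ v 1 = 0 := by
  rw [dl, map_one]
  exact dj_five ρ v

theorem dl_range (h0 : α w0 = w0) (hy : α yy = yy') {ρ : Representation K A6 V} (hi : ρ.invariants = ⊥) {v : V}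
    (hv : v ∈ Fx ρ) (g : A6) {n : ℕ} (hn : (n : K) ≠ 0) (hg : g ^ n = 1) :
    dl α ρ v g ∈ LinearMap.range (ρ g - 1) := by
  have h1 := mem_range_of_cocycle (ρ g) hn (fun k => dl α ρ v (g ^ k)) (by rw [pow_zero, dl_one])
    (by rw [hg, dl_one]) (by
      intro k
      rw [dl_mul h0 hy hi hv, ← pow_succ', pow_one])
  simpa using h1

/-- elements moving `0` to `5` and `2` to `j` -/
def qj : Fin 6 → A6 := ![(s 0)⁻¹ * s 2, s 1 * s 0 * s 2, (s 0)⁻¹, s 3 * s 0 * s 2, s 2 * s 0, 1]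

theorem qj_zero : ∀ j : Fin 6, j ≠ 5 → (qj j : Equiv.Perm (Fin 6)) 0 = 5 := by decide +kernel
theorem qj_two : ∀ j : Fin 6, j ≠ 5 → (qj j : Equiv.Perm (Fin 6)) 2 = j := by decide +kernel

/-- injectivity -/
theorem eq_zero_of_dj {ρ : Representation K A6 V} (hi : ρ.invariants = ⊥) {v : V} (hv : v ∈ Fx ρ)
    (h : ∀ j, dj ρ v j = 0) : v = 0 := by
  have e4 := h 4
  have e0 := h 0
  have e1 := h 1
  simp only [dj, Fin.sum_univ_six, DD] at e4 e0 e1
  simp at e4 e0 e1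
  have h3 := three_eq K
  have h02 : cv ρ v 0 = cv ρ v 2 := by
    have e5 : (2 : K) • (cv ρ v 0 - cv ρ v 2) = 0 := by
      rw [two_smul]
      have : cv ρ v 0 - cv ρ v 2 + (cv ρ v 0 - cv ρ v 2) =
        (cv ρ v 0 + cv ρ v 1 + -cv ρ v 2 + -cv ρ v 3) + ((cv ρ v 0 + -cv ρ v 2 + -cv ρ v 4 + cv ρ v 5) -
          (cv ρ v 1 + -cv ρ v 3 + -cv ρ v 4 + cv ρ v 5)) := by abel
      rw [this, e4, e0, e1, sub_self, add_zero]
    have h2 : (2 : K) ≠ 0 := by
      intro h2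
      exact one_ne_zero (α := K) (by linear_combination h3 - h2)
    exact sub_eq_zero.1 ((smul_eq_zero.1 e5).resolve_left h2)
  have hall : ∀ j, cv ρ v j = v := by
    intro j
    by_cases hj : j = 5
    · rw [hj, cv_five]
    · have h5 := congrArg (ρ (qj j)) h02
      rw [cv_act hv, cv_act hv, qj_zero j hj, qj_two j hj, cv_five] at h5
      exact h5.symm
  rw [← Submodule.mem_bot K, ← hi, Representation.mem_invariants]
  intro g
  have h6 := cv_act hv g 5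
  rw [hall, hall] at h6
  exact h6

omit [CharP K 3] in
theorem dj_add (ρ : Representation K A6 V) (v w : V) (j : Fin 6) : dj ρ (v + w) j = dj ρ v j + dj ρ w j := by
  simp only [dj, cv_add, smul_add, Finset.sum_add_distrib]

omit [CharP K 3] in
theorem dj_smul (ρ : Representation K A6 V) (c : K) (v : V) (j : Fin 6) : dj ρ (c • v) j = c • dj ρ v j := by
  simp only [dj, cv_smul, Finset.smul_sum]
  exact Finset.sum_congr rfl fun k _ => smul_comm _ _ _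

/-- `v ↦ dj ρ v j` as a linear map on the fixed vectors -/
def djl (ρ : Representation K A6 V) (j : Fin 6) : ↥(Fx ρ) →ₗ[K] V where
  toFun v := dj ρ v j
  map_add' v w := dj_add ρ v w j
  map_smul' c v := dj_smul ρ c v j

theorem transfer [FiniteDimensional K V] (h0 : α w0 = w0) (hy : α yy = yy') (hα : ∀ g, α (α g) = g)
    (ρ : Representation K A6 V) (hi : ρ.invariants = ⊥) (hi' : ρ.dual.invariants = ⊥)
    (he : finrank K V ≤ ev (ρ w0) 1 + ev (ρ yy) 1 + ev (ρ (w0 * yy)) 1) :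
    finrank K ↥(Fx ρ) ≤ finrank K ↥(Fx (MonoidHom.comp ρ α : Representation K A6 V)) := by
  have h3 := three_eq K
  have n2 : ((2 : ℕ) : K) ≠ 0 := by
    intro h2
    push_cast at h2
    exact one_ne_zero (α := K) (by linear_combination h3 - h2)
  have n4 : ((4 : ℕ) : K) ≠ 0 := by
    intro h2
    push_cast at h2
    exact one_ne_zero (α := K) (by linear_combination h2 - h3)
  have n5 : ((5 : ℕ) : K) ≠ 0 := by
    intro h2
    push_cast at h2
    exact one_ne_zero (α := K) (by linear_combination 2 * h3 - h2)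
  let Ψ : (V × ↥(Fx ρ)) →ₗ[K] V × V :=
    LinearMap.prod ((ρ w0 - 1) ∘ₗ LinearMap.fst K V ↥(Fx ρ) -
        (djl ρ ((α w0 : Equiv.Perm (Fin 6)) 5)) ∘ₗ LinearMap.snd K V ↥(Fx ρ))
      ((ρ yy - 1) ∘ₗ LinearMap.fst K V ↥(Fx ρ) -
        (djl ρ ((α yy : Equiv.Perm (Fin 6)) 5)) ∘ₗ LinearMap.snd K V ↥(Fx ρ))
  have hΨ : ∀ (w : V) (v : ↥(Fx ρ)), (w, v) ∈ LinearMap.ker Ψ ↔ ρ w0 w - w = dl α ρ v w0 ∧ ρ yy w - w = dl α ρ v yy := by
    intro w v
    rw [LinearMap.mem_ker]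
    change ((ρ w0 w - w) - dl α ρ v w0, (ρ yy w - w) - dl α ρ v yy) = 0 ↔ _
    rw [Prod.mk_eq_zero, sub_eq_zero, sub_eq_zero]
  -- all the elements of the kernel
  have hall : ∀ (w : V) (v : ↥(Fx ρ)), (w, v) ∈ LinearMap.ker Ψ → ∀ g, ρ g w = w + dl α ρ v g := by
    intro w v hwv g
    obtain ⟨q1, q2⟩ := (hΨ w v).1 hwv
    refine Scott.fix_all (P := fun g => ρ g w = w + dl α ρ v g) gen_xy ?_ ?_ ?_ ?_ ?_ g
    · rw [← q1]; abel
    · rw [← q2]; abel
    · rw [rone, dl_one, add_zero]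
    · intro a b ha hb
      rw [rmul, hb, map_add, ha, dl_mul h0 hy hi v.2]
      abel
    · intro a ha
      have e1 : ρ a⁻¹ (ρ a w) = w := rinv ρ a w
      have e2 := dl_mul h0 hy hi v.2 a⁻¹ a
      rw [inv_mul_cancel, dl_one, zero_sub] at e2
      rw [ha, map_add, e2] at e1
      rw [← sub_eq_add_neg, sub_eq_iff_eq_add] at e1
      exact e1
  have hsurj : LinearMap.range (LinearMap.snd K V ↥(Fx ρ) ∘ₗ (LinearMap.ker Ψ).subtype) = ⊤ := by
    rw [eq_top_iff]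
    rintro v -
    have r1 := dl_range h0 hy hi v.2 w0 n2 (by decide +kernel)
    have r2 := dl_range h0 hy hi v.2 yy n4 (by decide +kernel)
    have r3 := dl_range h0 hy hi v.2 (w0 * yy) n5 (by decide +kernel)
    obtain ⟨w, q1, q2⟩ := scott_eq ρ gen_xy hi hi' he r1 r2 (by
      rw [dl_mul h0 hy hi v.2]
      convert r3 using 1
      abel)
    exact ⟨⟨(w, v), (hΨ w v).2 ⟨q1, q2⟩⟩, rfl⟩
  have d1 : finrank K ↥(Fx ρ) ≤ finrank K ↥(LinearMap.ker Ψ) := by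
    have := LinearMap.finrank_range_le (LinearMap.snd K V ↥(Fx ρ) ∘ₗ (LinearMap.ker Ψ).subtype)
    rwa [hsurj, finrank_top] at this
  let f : ↥(LinearMap.ker Ψ) →ₗ[K] V := LinearMap.fst K V ↥(Fx ρ) ∘ₗ (LinearMap.ker Ψ).subtype
  have hf : ∀ u, f u ∈ Fx (MonoidHom.comp ρ α : Representation K A6 V) := by
    rintro ⟨⟨w, v⟩, hwv⟩ g hg
    change ρ (α g) w = w
    rw [hall w v hwv, dl, hα, hg, dj_five, add_zero]
  let f' : ↥(LinearMap.ker Ψ) →ₗ[K] ↥(Fx (MonoidHom.comp ρ α : Representation K A6 V)) := f.codRestrict _ hf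
  have hinj : Function.Injective f' := by
    rw [← LinearMap.ker_eq_bot, eq_bot_iff]
    rintro ⟨⟨w, v⟩, hwv⟩ hu
    have hw : w = 0 := congrArg Subtype.val (LinearMap.mem_ker.1 hu)
    have hz : ∀ j, dj ρ v j = 0 := by
      intro j
      have h5 := hall w v hwv (α (tr j))
      rw [hw, map_zero, zero_add, dl, hα, tr_five] at h5
      exact h5.symm
    have hv0 : (v : V) = 0 := eq_zero_of_dj hi v.2 hz
    refine (Submodule.mem_bot K).2 (Subtype.ext (Prod.ext hw (Subtype.ext hv0)))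
  exact d1.trans (LinearMap.finrank_le_finrank_of_injective hinj)

end

end Cfsg.Agent.H505.E6Three
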