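import Cfsg.Agent.H505.E6Three.Trace
import Cfsg.Agent.H505.E6Three.Transfer
import Cfsg.Agent.H952.F4.Eig
import Cfsg.Agent.H952.F4.Gen

/-!
# S5927, `six_three` (K7): `A₆` on a 27-dimensional module in characteristic 3, `f₂ = 15`, `f₄ = 7`, `f₅ = 5`
-/

set_option autoImplicit false

namespace Cfsg.Agent.H505.E6Three

open Module Cfsg.Agent.H952.F4 Equiv

/-! ### The natural `A₅` -/

/-- The embedding `A₅ → A₆`. -/
noncomputable def io : ↥(alternatingGroup (Fin 5)) →* A6 :=
  ((Perm.extendDomainHom (finSuccAboveEquiv (5 : Fin 6))).comp (alternatingGroup (Fin 5)).subtype).codRestrict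
    (alternatingGroup (Fin 6)) fun g => by
      rw [Perm.mem_alternatingGroup]
      exact (Perm.sign_extendDomain _ _).trans (Perm.mem_alternatingGroup.1 g.2)

theorem ct_io (g : ↥(alternatingGroup (Fin 5))) :
    ((io g : A6) : Perm (Fin 6)).cycleType = (g : Perm (Fin 5)).cycleType := Perm.cycleType_extendDomain _

theorem io_five (g : ↥(alternatingGroup (Fin 5))) : ((io g : A6) : Perm (Fin 6)) 5 = 5 :=
  Perm.extendDomain_apply_not_subtype _ _ (by simp)

theorem exists_io (g : A6) (hg : (g : Perm (Fin 6)) 5 = 5) : ∃ g', io g' = g := by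
  have hp : ∀ x : Fin 6, (g : Perm (Fin 6)) x ≠ 5 ↔ x ≠ 5 := by
    intro x
    rw [not_iff_not]
    constructor
    · intro h
      exact (g : Perm (Fin 6)).injective (h.trans hg.symm)
    · rintro rfl
      exact hg
  set f : Fin 5 ≃ {x : Fin 6 // x ≠ 5} := (finSuccAboveEquiv (5 : Fin 6)) with hf
  set e : Perm (Fin 5) := (f.trans ((g : Perm (Fin 6)).subtypePerm hp)).trans f.symm with he
  have h1 : e.extendDomain f = g := by
    ext x
    by_cases hx : x ≠ 5
    · rw [Perm.extendDomain_apply_subtype e f hx, he]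
      simp
    · push Not at hx
      subst hx
      rw [Perm.extendDomain_apply_not_subtype e f (by simp), hg]
  refine ⟨⟨e, ?_⟩, Subtype.ext h1⟩
  rw [Perm.mem_alternatingGroup, ← Perm.sign_extendDomain e f, h1]
  exact Perm.mem_alternatingGroup.1 g.2

section
variable {K V : Type*} [Field K] [AddCommGroup V] [Module K V]

theorem inv_io (ρ : Representation K A6 V) : Representation.invariants (MonoidHom.comp ρ io) = Fx ρ := by
  ext v
  rw [Representation.mem_invariants, mem_Fx]
  constructor
  · intro h g hg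
    obtain ⟨g', rfl⟩ := exists_io g hg
    exact h g'
  · intro h g
    exact h _ (io_five g)

variable [FiniteDimensional K V]

theorem ev_conj (ρ : Representation K A6 V) (k g : A6) : ev (ρ (k * g * k⁻¹)) 1 = ev (ρ g) 1 := by
  have h1 : ∀ (a b : A6), es (ρ (a * b * a⁻¹)) 1 = (es (ρ b) 1).map (ρ a) := by
    intro a b
    ext v
    simp only [es, Submodule.mem_map, Module.End.mem_eigenspace_iff, one_smul]
    constructor
    · intro h
      refine ⟨ρ a⁻¹ v, ?_, ?_⟩
      · have := congrArg (ρ a⁻¹) h
        rw [rmul, rmul, rinv] at this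
        exact this
      · rw [← rmul, mul_inv_cancel, rone]
    · rintro ⟨w, hw, rfl⟩
      rw [rmul, rmul, rinv, hw]
  have h2 : ∀ (a b : A6), ev (ρ (a * b * a⁻¹)) 1 ≤ ev (ρ b) 1 := by
    intro a b
    change finrank K ↥(es (ρ (a * b * a⁻¹)) 1) ≤ finrank K ↥(es (ρ b) 1)
    rw [h1]
    exact Submodule.finrank_map_le _ _
  apply le_antisymm (h2 k g)
  have h3 := h2 k⁻¹ (k * g * k⁻¹)
  rwa [show k⁻¹ * (k * g * k⁻¹) * k⁻¹⁻¹ = g by group] at h3

/-- characteristic 3, free action of a group of order 3 -/
theorem exists_norm [CharP K 3] (T : Module.End K V) (hT : T ^ 3 = 1) (hd : finrank K V = 3 * ev T 1) {v : V}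
    (hv : T v = v) : ∃ v', v = v' + T v' + T (T v') := by
  have h3 := three_eq K
  set N : Module.End K V := T - 1 with hN
  have e1 : ∀ x, (N ^ 2) x = x + T x + T (T x) := by
    intro x
    rw [pow_two, hN]
    change T (T x - x) - (T x - x) = _
    rw [map_sub]
    have : (3 : K) • T x = 0 := by rw [h3, zero_smul]
    have e : (3 : K) • T x = T x + T x + T x := by
      rw [show (3 : K) = 1 + 1 + 1 by norm_num, add_smul, add_smul, one_smul]
    rw [e] at this
    calc T (T x) - T x - (T x - x) = (x + T x + T (T x)) - (T x + T x + T x) := by abel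
      _ = _ := by rw [this, sub_zero]
  have hle : LinearMap.range (N ^ 2) ≤ LinearMap.ker N := by
    rintro _ ⟨x, rfl⟩
    rw [LinearMap.mem_ker, e1, hN]
    change T (x + T x + T (T x)) - (x + T x + T (T x)) = 0
    have h4 : T (T (T x)) = x := by
      have := LinearMap.congr_fun hT x
      rw [pow_succ, pow_two] at this
      exact this
    rw [map_add, map_add, h4]
    abel
  have h5 := LinearMap.finrank_range_add_finrank_ker (N ^ 2)
  have h6 := Cfsg.Agent.H546.F4Eig.finrank_ker_pow_le N 2
  have h7 : finrank K ↥(LinearMap.ker N) = ev T 1 := by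
    rw [ev, Module.End.eigenspace_def, one_smul]
  have heq : LinearMap.range (N ^ 2) = LinearMap.ker N := by
    apply Submodule.eq_of_le_of_finrank_le hle
    rw [h7] at h6 ⊢
    omega
  have hmem : v ∈ LinearMap.ker N := by
    rw [LinearMap.mem_ker, hN]
    change T v - v = 0
    rw [hv, sub_self]
  rw [← heq] at hmem
  obtain ⟨v', hv'⟩ := hmem
  exact ⟨v', by rw [← hv', e1]⟩

end

end Cfsg.Agent.H505.E6Three
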