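import Mathlib
import Cfsg.Agent.Lib.AltCarmichael

/-!
# S5927, `six_three` (K7): elements of `A₆` and the exotic automorphism
-/

set_option autoImplicit false
set_option maxRecDepth 100000

namespace Cfsg.Agent.H505.E6Three

open Equiv Equiv.Perm Subgroup
open Cfsg.Agent.Lib.AltCarmichael

/-- `A₆` -/
abbrev A6 : Type := ↥(alternatingGroup (Fin 6))

/-- the Carmichael generators `(i 4 5)` -/
def s : ℕ → A6
  | 0 => ⟨swap 0 4 * swap 4 5, by rw [Perm.mem_alternatingGroup]; decide⟩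
  | 1 => ⟨swap 1 4 * swap 4 5, by rw [Perm.mem_alternatingGroup]; decide⟩
  | 2 => ⟨swap 2 4 * swap 4 5, by rw [Perm.mem_alternatingGroup]; decide⟩
  | _ => ⟨swap 3 4 * swap 4 5, by rw [Perm.mem_alternatingGroup]; decide⟩

theorem s_eq (i : ℕ) (hi : i < 4) : (s i : Perm (Fin 6)) = cyc 4 i := by
  interval_cases i <;> decide

/-- the images of the Carmichael generators -/
def xe : ℕ → A6
  | 0 => ⟨swap 0 4 * swap 4 3 * (swap 1 2 * swap 2 5), by rw [Perm.mem_alternatingGroup]; decide⟩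
  | 1 => ⟨swap 0 3 * swap 3 5 * (swap 1 4 * swap 4 2), by rw [Perm.mem_alternatingGroup]; decide⟩
  | 2 => ⟨swap 0 2 * swap 2 4 * (swap 1 5 * swap 5 3), by rw [Perm.mem_alternatingGroup]; decide⟩
  | _ => ⟨swap 0 5 * swap 5 2 * (swap 1 3 * swap 3 4), by rw [Perm.mem_alternatingGroup]; decide⟩

theorem rel_xe : Rel 4 xe where
  cube := by
    intro i hi
    interval_cases i <;> (apply Subtype.ext; decide)
  sq := by
    intro i hi j hj hij
    interval_cases i <;> interval_cases j <;> first | exact absurd rfl hij | (apply Subtype.ext; decide)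

/-- `(0 1 2 4 3)` -/
def zz : A6 := ⟨swap 0 1 * swap 1 2 * swap 2 4 * swap 4 3, by rw [Perm.mem_alternatingGroup]; decide⟩
/-- `(0 1)(2 3)` -/
def w0 : A6 := ⟨swap 0 1 * swap 2 3, by rw [Perm.mem_alternatingGroup]; decide⟩
/-- `(0 2)(1 3)` -/
def w1 : A6 := ⟨swap 0 2 * swap 1 3, by rw [Perm.mem_alternatingGroup]; decide⟩
/-- `(1 2 3)` -/
def d3 : A6 := ⟨swap 1 2 * swap 2 3, by rw [Perm.mem_alternatingGroup]; decide⟩
/-- `(0 2 1 3)(4 5)` -/
def cc : A6 := ⟨swap 0 2 * swap 2 1 * swap 1 3 * swap 4 5, by rw [Perm.mem_alternatingGroup]; decide⟩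
/-- `(0 5)(1 3 2 4)` -/
def yy : A6 := ⟨swap 0 5 * (swap 1 3 * swap 3 2 * swap 2 4), by rw [Perm.mem_alternatingGroup]; decide⟩
/-- `(0 1)(4 5)` -/
def w1' : A6 := ⟨swap 0 1 * swap 4 5, by rw [Perm.mem_alternatingGroup]; decide⟩
/-- `(0 4 3)(1 5 2)` -/
def d3' : A6 := ⟨swap 0 4 * swap 4 3 * (swap 1 5 * swap 5 2), by rw [Perm.mem_alternatingGroup]; decide⟩
/-- `(0 3 5 1)(2 4)` -/
def yy' : A6 := ⟨swap 0 3 * swap 3 5 * swap 5 1 * swap 2 4, by rw [Perm.mem_alternatingGroup]; decide⟩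

/-- a subgroup containing the Carmichael generators -/
theorem top_of_s (H : Subgroup A6) (h : ∀ i < 4, s i ∈ H) (g : A6) : g ∈ H := by
  have h1 : gen 4 (cyc 4) ≤ H.map (alternatingGroup (Fin 6)).subtype := by
    rw [gen_def, Subgroup.closure_le]
    rintro _ ⟨i, hi, rfl⟩
    exact ⟨s i, h i hi, s_eq i hi⟩
  have h2 := gen_cyc 4 (by norm_num)
  have h3 : (g : Perm (Fin 6)) ∈ gen 4 (cyc 4) := by
    rw [h2]; exact g.2
  obtain ⟨g', hg', he⟩ := h1 h3
  have : g' = g := Subtype.ext he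
  rwa [← this]

theorem exists_alpha : ∃ α : A6 →* A6, (∀ g, α (α g) = g) ∧ α zz = zz ∧ α w0 = w0 ∧ α w1 = w1' ∧ α d3 = d3' ∧
    α yy = yy' := by
  obtain ⟨φ, hφ⟩ := exists_hom (m := 4) (by norm_num) rel_xe
  have hs : ∀ i < 4, φ (s i) = xe i := by
    intro i hi
    have : s i = ⟨cyc 4 i, cyc_mem 4 i hi⟩ := Subtype.ext (s_eq i hi)
    rw [this]
    exact hφ i hi
  have h0 := hs 0 (by norm_num)
  have h1 := hs 1 (by norm_num)
  have h2 := hs 2 (by norm_num)
  have h3 := hs 3 (by norm_num)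
  have k0 : φ (xe 0) = s 0 := by
    rw [show xe 0 = s 0 * s 2 * s 3 * s 1 by apply Subtype.ext; decide, map_mul, map_mul, map_mul, h0, h1, h2, h3]
    apply Subtype.ext; decide
  have k1 : φ (xe 1) = s 1 := by
    rw [show xe 1 = s 1 * s 3 * s 2 * s 0 by apply Subtype.ext; decide, map_mul, map_mul, map_mul, h0, h1, h2, h3]
    apply Subtype.ext; decide
  have k2 : φ (xe 2) = s 2 := by
    rw [show xe 2 = s 2 * s 1 * s 0 * s 3 by apply Subtype.ext; decide, map_mul, map_mul, map_mul, h0, h1, h2, h3]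
    apply Subtype.ext; decide
  have k3 : φ (xe 3) = s 3 := by
    rw [show xe 3 = s 3 * s 0 * s 1 * s 2 by apply Subtype.ext; decide, map_mul, map_mul, map_mul, h0, h1, h2, h3]
    apply Subtype.ext; decide
  refine ⟨φ, ?_, ?_, ?_, ?_, ?_, ?_⟩
  · intro g
    refine top_of_s ((φ.comp φ).eqLocus (MonoidHom.id A6)) ?_ g
    intro i hi
    change φ (φ (s i)) = s i
    rw [hs i hi]
    interval_cases i
    · exact k0
    · exact k1
    · exact k2
    · exact k3
  · rw [show zz = s 2 * (s 1)⁻¹ * s 0 * (s 3)⁻¹ by apply Subtype.ext; decide, map_mul, map_mul, map_mul, map_inv, map_inv,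
      h0, h1, h2, h3]
    apply Subtype.ext; decide
  · rw [show w0 = s 0 * s 2 * s 1 * s 3 * s 0 * s 2 by apply Subtype.ext; decide, map_mul, map_mul, map_mul, map_mul,
      map_mul, h0, h1, h2, h3]
    apply Subtype.ext; decide
  · rw [show w1 = s 0 * s 1 * s 2 * s 3 * s 0 * s 1 by apply Subtype.ext; decide, map_mul, map_mul, map_mul, map_mul,
      map_mul, h0, h1, h2, h3]
    apply Subtype.ext; decide
  · rw [show d3 = s 1 * (s 3)⁻¹ * s 2 * (s 1)⁻¹ by apply Subtype.ext; decide, map_mul, map_mul, map_mul, map_inv, map_inv,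
      h1, h2, h3]
    apply Subtype.ext; decide
  · rw [show yy = s 2 * s 0 * s 3 * (s 1)⁻¹ by apply Subtype.ext; decide, map_mul, map_mul, map_mul, map_inv,
      h0, h1, h2, h3]
    apply Subtype.ext; decide

/-- `w0`, `yy` generate -/
theorem gen_xy : Subgroup.closure {w0, yy} = ⊤ := by
  rw [eq_top_iff]
  intro g _
  have hx : w0 ∈ Subgroup.closure {w0, yy} := Subgroup.subset_closure (by simp)
  have hy : yy ∈ Subgroup.closure {w0, yy} := Subgroup.subset_closure (by simp)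
  have hy' := inv_mem hy
  refine top_of_s _ ?_ g
  intro i hi
  interval_cases i
  · rw [show s 0 = yy * yy * w0 * yy * w0 * yy⁻¹ * w0 * yy⁻¹ * w0 by apply Subtype.ext; decide +kernel]
    exact mul_mem (mul_mem (mul_mem (mul_mem (mul_mem (mul_mem (mul_mem (mul_mem hy hy) hx) hy) hx) hy') hx) hy') hx
  · rw [show s 1 = w0 * yy * yy * w0 * yy * w0 * yy⁻¹ * w0 * yy⁻¹ by apply Subtype.ext; decide +kernel]
    exact mul_mem (mul_mem (mul_mem (mul_mem (mul_mem (mul_mem (mul_mem (mul_mem hx hy) hy) hx) hy) hx) hy') hx) hy'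
  · rw [show s 2 = yy⁻¹ * w0 * yy * w0 * yy⁻¹ * w0 * yy * yy * w0 * yy⁻¹ * w0 * yy⁻¹ by
      apply Subtype.ext; decide +kernel]
    exact mul_mem (mul_mem (mul_mem (mul_mem (mul_mem (mul_mem (mul_mem (mul_mem (mul_mem (mul_mem (mul_mem hy' hx) hy)
      hx) hy') hx) hy) hy) hx) hy') hx) hy'
  · rw [show s 3 = w0 * yy⁻¹ * w0 * yy * w0 * yy⁻¹ * w0 * yy⁻¹ * w0 * yy * w0 * yy by
      apply Subtype.ext; decide +kernel]
    exact mul_mem (mul_mem (mul_mem (mul_mem (mul_mem (mul_mem (mul_mem (mul_mem (mul_mem (mul_mem (mul_mem hx hy') hx)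
      hy) hx) hy') hx) hy') hx) hy) hx) hy

end Cfsg.Agent.H505.E6Three
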