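import Cfsg.Agent.H505.E6Three.Six

/-!
# S5927, `six_three` (K7): the projection on the fixed vectors of `D₁₀`, characteristic 3
-/

set_option autoImplicit false

namespace Cfsg.Agent.H505.E6Three

open Module Cfsg.Agent.H952.F4

section
variable {K V : Type*} [Field K] [AddCommGroup V] [Module K V]

/-- the fixed vectors of `D₁₀` -/
def U (ρ : Representation K A6 V) : Submodule K V := es (ρ zz) 1 ⊓ es (ρ w0) 1

theorem mem_U {ρ : Representation K A6 V} {v : V} : v ∈ U ρ ↔ ρ zz v = v ∧ ρ w0 v = v := by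
  rw [U, Submodule.mem_inf]
  simp only [es, Module.End.mem_eigenspace_iff, one_smul]

/-- the projection (characteristic 3: `1/10 = 1`) -/
noncomputable def P (ρ : Representation K A6 V) : Module.End K V := ∑ i, ∑ b, ρ (D i b)

theorem P_apply (ρ : Representation K A6 V) (v : V) : P ρ v = ∑ i, ∑ b, ρ (D i b) v := by
  rw [P, LinearMap.sum_apply]
  exact Finset.sum_congr rfl fun i _ => LinearMap.sum_apply _ _ _

theorem zz_D : ∀ (i : Fin 5) (b : Bool), zz * D i b = D (i + 1) b := by decide +kernel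
theorem w0_D : ∀ (i : Fin 5) (b : Bool), w0 * D i b = D (-i) (!b) := by decide +kernel
theorem D_inv : ∀ (i : Fin 5) (b : Bool), (D i b)⁻¹ = D (cond b i (-i)) b := by decide +kernel

theorem zz_P (ρ : Representation K A6 V) (v : V) : ρ zz (P ρ v) = P ρ v := by
  rw [P_apply, map_sum, Finset.sum_congr rfl fun i _ => map_sum _ _ _]
  simp only [← rmul, zz_D]
  exact Equiv.sum_comp (Equiv.addRight (1 : Fin 5)) fun i => ∑ b, ρ (D i b) v

theorem w0_P (ρ : Representation K A6 V) (v : V) : ρ w0 (P ρ v) = P ρ v := by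
  rw [P_apply, map_sum, Finset.sum_congr rfl fun i _ => map_sum _ _ _]
  simp only [← rmul, w0_D]
  have h1 : ∀ i : Fin 5, ∑ b : Bool, ρ (D (-i) (!b)) v = ∑ b : Bool, ρ (D (-i) b) v := by
    intro i
    rw [Fintype.sum_bool, Fintype.sum_bool, add_comm]
    rfl
  rw [Finset.sum_congr rfl fun i _ => h1 i]
  exact Equiv.sum_comp (Equiv.neg (Fin 5)) fun i => ∑ b, ρ (D i b) v

theorem P_mem (ρ : Representation K A6 V) (v : V) : P ρ v ∈ U ρ := mem_U.2 ⟨zz_P ρ v, w0_P ρ v⟩

theorem D_fix {ρ : Representation K A6 V} {v : V} (hv : v ∈ U ρ) (i : Fin 5) (b : Bool) : ρ (D i b) v = v := by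
  obtain ⟨h1, h2⟩ := mem_U.1 hv
  have h3 : ∀ k : ℕ, ρ (zz ^ k) v = v := by
    intro k
    induction k with
    | zero => rw [pow_zero, rone]
    | succ k ih => rw [pow_succ, rmul, h1, ih]
  cases b
  · change ρ (zz ^ (i : ℕ) * 1) v = v
    rw [mul_one, h3]
  · change ρ (zz ^ (i : ℕ) * w0) v = v
    rw [rmul, h2, h3]

variable [CharP K 3]

variable (K) in
theorem three_eq : (3 : K) = 0 := by
  have := CharP.cast_eq_zero K 3
  exact_mod_cast this

theorem P_of_mem {ρ : Representation K A6 V} {v : V} (hv : v ∈ U ρ) : P ρ v = v := by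
  rw [P_apply, Finset.sum_congr rfl fun i _ => Finset.sum_congr rfl fun b _ => D_fix hv i b]
  rw [Finset.sum_const, Finset.sum_const, smul_smul]
  have h3 := three_eq K
  have : ((Finset.univ : Finset (Fin 5)).card * (Finset.univ : Finset Bool).card) • v = ((10 : K)) • v := by
    rw [← Nat.cast_smul_eq_nsmul K]
    norm_num
  rw [this, show (10 : K) = 1 by linear_combination 3 * h3, one_smul]

theorem isProj (ρ : Representation K A6 V) : LinearMap.IsProj (U ρ) (P ρ) :=
  ⟨P_mem ρ, fun _ hv => P_of_mem hv⟩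

theorem P_P (ρ : Representation K A6 V) (v : V) : P ρ (P ρ v) = P ρ v := P_of_mem (P_mem ρ v)

theorem P_cv {ρ : Representation K A6 V} (hi : ρ.invariants = ⊥) {v : V} (hv : v ∈ Fx ρ) (j : Fin 6) :
    P ρ (cv ρ v j) = v := by
  have hD5 : ∀ (i : Fin 5) (b : Bool), (D i b : Equiv.Perm (Fin 6)) 5 = 5 := by decide +kernel
  have h3 := three_eq K
  by_cases hj : j = 5
  · subst hj
    rw [cv_five]
    apply P_of_mem
    rw [mem_U]
    exact ⟨hv _ (by decide), hv _ (by decide)⟩
  · rw [P_apply, sum_D ρ hv j hj]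
    have h1 := cv_sum hi hv
    rw [Fin.sum_univ_castSucc] at h1
    have h2 : ∑ k : Fin 5, cv ρ v k.castSucc = - v := by
      have h4 : cv ρ v (Fin.last 5) = v := cv_five ρ v
      rw [h4] at h1
      exact eq_neg_of_add_eq_zero_left h1
    rw [h2, smul_neg, ← neg_smul, show (-2 : K) = 1 by linear_combination (-1 : K) * h3, one_smul]

theorem P_rho {ρ : Representation K A6 V} (hi : ρ.invariants = ⊥) {v : V} (hv : v ∈ Fx ρ) (g : A6) :
    P ρ (ρ g v) = v := by
  have h1 : ρ g v = cv ρ v ((g : Equiv.Perm (Fin 6)) 5) := by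
    rw [← cv_act hv, cv_five]
  rw [h1]
  exact P_cv hi hv _

omit [CharP K 3] in
/-- adjointness -/
theorem P_adj {V' : Type*} [AddCommGroup V'] [Module K V'] {ρ : Representation K A6 V} {ρ' : Representation K A6 V'}
    {B : V →ₗ[K] V' →ₗ[K] K} (hB : ∀ g v w, B (ρ g v) (ρ' g w) = B v w) (v : V) (w : V') :
    B (P ρ v) w = B v (P ρ' w) := by
  have h1 : ∀ g, B (ρ g v) w = B v (ρ' g⁻¹ w) := by
    intro g
    rw [← hB g v (ρ' g⁻¹ w), ← rmul, mul_inv_cancel, rone]
  rw [P_apply, P_apply, map_sum, LinearMap.sum_apply, map_sum]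
  simp only [map_sum, LinearMap.sum_apply, h1, D_inv]
  conv_lhs => rw [Finset.sum_comm]
  conv_rhs => rw [Finset.sum_comm]
  refine Finset.sum_congr rfl fun b _ => ?_
  cases b
  · exact Equiv.sum_comp (Equiv.neg (Fin 5)) fun i => B v (ρ' (D i false) w)
  · rfl

end

end Cfsg.Agent.H505.E6Three
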