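import Mathlib
import Cfsg.Agent.H952.F4.Scott

/-!
# S5927, `six_three` (K7): the case of equality in Scott's lemma
-/

set_option autoImplicit false

namespace Cfsg.Agent.H505.E6Three

open Module Cfsg.Agent.H952.F4

section
variable {K V G : Type*} [Field K] [AddCommGroup V] [Module K V] [FiniteDimensional K V] [Group G]

/-- The case of equality in Scott's lemma: a pair `(a, b)` which could be `((x - 1) v, (y - 1) v)` is. -/
theorem scott_eq (ρ : Representation K G V) {x y : G} (hgen : Subgroup.closure {x, y} = ⊤) (h1 : ρ.invariants = ⊥)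
    (h2 : ρ.dual.invariants = ⊥) (he : finrank K V ≤ ev (ρ x) 1 + ev (ρ y) 1 + ev (ρ (x * y)) 1) {a b : V}
    (ha : a ∈ LinearMap.range (ρ x - 1)) (hb : b ∈ LinearMap.range (ρ y - 1))
    (hab : a + ρ x b ∈ LinearMap.range (ρ (x * y) - 1)) : ∃ v, ρ x v - v = a ∧ ρ y v - v = b := by
  set A := LinearMap.range (ρ x - 1) with hA
  set B := LinearMap.range (ρ y - 1) with hB
  set C := LinearMap.range (ρ (x * y) - 1) with hC
  have hsup : A ⊔ B = ⊤ := by
    have hle : (A ⊔ B).dualAnnihilator ≤ ρ.dual.invariants := by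
      intro f hf
      rw [Representation.mem_invariants]
      rw [Submodule.mem_dualAnnihilator] at hf
      have hfx : ∀ v, f (ρ x v) = f v := fun v => by
        have := hf (ρ x v - v) (Submodule.mem_sup_left ⟨v, rfl⟩)
        rwa [map_sub, sub_eq_zero] at this
      have hfy : ∀ v, f (ρ y v) = f v := fun v => by
        have := hf (ρ y v - v) (Submodule.mem_sup_right ⟨v, rfl⟩)
        rwa [map_sub, sub_eq_zero] at this
      have hall : ∀ g v, f (ρ g v) = f v := by
        intro g
        refine Scott.fix_all (P := fun g => ∀ v, f (ρ g v) = f v) hgen hfx hfy ?_ ?_ ?_ g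
        · intro v
          rw [map_one, Module.End.one_apply]
        · intro a b ha hb v
          rw [map_mul, Module.End.mul_apply, ha, hb]
        · intro a ha v
          rw [← ha (ρ a⁻¹ v), ← Module.End.mul_apply, ← map_mul, mul_inv_cancel, map_one, Module.End.one_apply]
      intro g
      refine LinearMap.ext fun v => ?_
      change f (ρ g⁻¹ v) = f v
      exact hall _ _
    rw [h2, le_bot_iff] at hle
    have h8 := Subspace.finrank_add_finrank_dualAnnihilator_eq (A ⊔ B)
    rw [hle, finrank_bot, add_zero] at h8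
    exact Submodule.eq_top_of_finrank_eq h8
  let θ0 : (↥A × ↥B) →ₗ[K] V := A.subtype.coprod ((ρ x) ∘ₗ B.subtype)
  have hθ0 : LinearMap.range θ0 = ⊤ := by
    rw [eq_top_iff, ← hsup]
    refine sup_le ?_ ?_
    · intro u hu
      exact ⟨(⟨u, hu⟩, 0), by simp [θ0]⟩
    · intro u hu
      refine ⟨(⟨-(ρ x u - u), neg_mem ⟨u, rfl⟩⟩, ⟨u, hu⟩), ?_⟩
      simp only [θ0, LinearMap.coprod_apply, LinearMap.comp_apply, Submodule.subtype_apply]
      abel
  let θ : (↥A × ↥B) →ₗ[K] V ⧸ C := C.mkQ ∘ₗ θ0
  have hθ : LinearMap.range θ = ⊤ := by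
    rw [LinearMap.range_comp, hθ0, Submodule.map_top, Submodule.range_mkQ]
  have d1 := LinearMap.finrank_range_add_finrank_ker θ
  rw [hθ, finrank_top, Module.finrank_prod] at d1
  have d2 := Submodule.finrank_quotient_add_finrank C
  have d3 := Scott.rank_add_ev (ρ x)
  have d4 := Scott.rank_add_ev (ρ y)
  have d5 := Scott.rank_add_ev (ρ (x * y))
  rw [← hA] at d3
  rw [← hB] at d4
  rw [← hC] at d5
  let Φ : V →ₗ[K] (↥A × ↥B) := LinearMap.prod ((ρ x - 1).rangeRestrict) ((ρ y - 1).rangeRestrict)
  have hΦ : LinearMap.ker Φ = ⊥ := by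
    rw [eq_bot_iff, ← h1]
    intro v hv
    have hv' := LinearMap.mem_ker.1 hv
    have e1 : ρ x v = v := by
      have := congrArg (fun z : ↥A × ↥B => (z.1 : V)) hv'
      exact sub_eq_zero.1 this
    have e2 : ρ y v = v := by
      have := congrArg (fun z : ↥A × ↥B => (z.2 : V)) hv'
      exact sub_eq_zero.1 this
    rw [Representation.mem_invariants]
    intro g
    refine Scott.fix_all (P := fun g => ρ g v = v) hgen e1 e2 ?_ ?_ ?_ g
    · rw [map_one, Module.End.one_apply]
    · intro a b ha hb
      rw [map_mul, Module.End.mul_apply, hb, ha]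
    · intro a ha
      calc ρ a⁻¹ v = ρ a⁻¹ (ρ a v) := by rw [ha]
        _ = v := by rw [← Module.End.mul_apply, ← map_mul, inv_mul_cancel, map_one, Module.End.one_apply]
  have hr : LinearMap.range Φ ≤ LinearMap.ker θ := by
    rintro _ ⟨v, rfl⟩
    rw [LinearMap.mem_ker]
    change C.mkQ ((ρ x v - v) + ρ x (ρ y v - v)) = 0
    rw [Submodule.mkQ_apply, Submodule.Quotient.mk_eq_zero]
    refine ⟨v, ?_⟩
    change ρ (x * y) v - v = _
    rw [map_mul, Module.End.mul_apply, map_sub]
    abel
  have d6 := LinearMap.finrank_range_add_finrank_ker Φ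
  rw [hΦ, finrank_bot, add_zero] at d6
  have hle := Submodule.finrank_mono hr
  have heq : LinearMap.range Φ = LinearMap.ker θ := Submodule.eq_of_le_of_finrank_le hr (by omega)
  have hmem : ((⟨a, ha⟩, ⟨b, hb⟩) : ↥A × ↥B) ∈ LinearMap.ker θ := by
    rw [LinearMap.mem_ker]
    change C.mkQ (a + ρ x b) = 0
    rw [Submodule.mkQ_apply, Submodule.Quotient.mk_eq_zero]
    exact hab
  rw [← heq] at hmem
  obtain ⟨v, hv⟩ := hmem
  exact ⟨v, congrArg (fun z : ↥A × ↥B => (z.1 : V)) hv, congrArg (fun z : ↥A × ↥B => (z.2 : V)) hv⟩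

end

section
variable {K V V' G : Type*} [Field K] [AddCommGroup V] [Module K V] [FiniteDimensional K V] [AddCommGroup V']
  [Module K V'] [FiniteDimensional K V'] [Group G]

/-- the dual module in terms of a perfect pairing -/
theorem dual_inv_le (ρ : Representation K G V) (ρ' : Representation K G V') (B : V →ₗ[K] V' →ₗ[K] K)
    (hinv : ∀ g v w, B (ρ g v) (ρ' g w) = B v w) (h1 : ∀ v, (∀ w, B v w = 0) → v = 0)
    (h2 : ∀ w, (∀ v, B v w = 0) → w = 0) : finrank K ρ.dual.invariants ≤ finrank K ρ'.invariants := by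
  have hinj : Function.Injective B.flip := by
    rw [← LinearMap.ker_eq_bot, eq_bot_iff]
    intro w hw
    refine (Submodule.mem_bot K).2 (h2 w fun v => ?_)
    have := LinearMap.congr_fun (LinearMap.mem_ker.1 hw) v
    exact this
  have hinj1 : Function.Injective B := by
    rw [← LinearMap.ker_eq_bot, eq_bot_iff]
    intro v hv
    refine (Submodule.mem_bot K).2 (h1 v fun w => ?_)
    have := LinearMap.congr_fun (LinearMap.mem_ker.1 hv) w
    exact this
  have e1 : finrank K V ≤ finrank K V' := by
    have := LinearMap.finrank_le_finrank_of_injective (f := B) hinj1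
    rwa [Subspace.dual_finrank_eq] at this
  have e2 : finrank K V' ≤ finrank K V := by
    have := LinearMap.finrank_le_finrank_of_injective (f := B.flip) hinj
    rwa [Subspace.dual_finrank_eq] at this
  have hd : finrank K V' = finrank K (Module.Dual K V) := by
    rw [Subspace.dual_finrank_eq]; omega
  have hsurj : Function.Surjective B.flip :=
    (LinearMap.injective_iff_surjective_of_finrank_eq_finrank (f := (B.flip : V' →ₗ[K] Module.Dual K V)) hd).1 hinj
  have hle : ρ.dual.invariants ≤ ρ'.invariants.map (B.flip : V' →ₗ[K] Module.Dual K V) := by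
    intro f hf
    obtain ⟨w, rfl⟩ := hsurj f
    refine ⟨w, ?_, rfl⟩
    have hf' := (Representation.mem_invariants (ρ := ρ.dual) _).1 hf
    change w ∈ ρ'.invariants
    rw [Representation.mem_invariants]
    intro g
    refine sub_eq_zero.1 (h2 _ fun v => ?_)
    have h3 : B (ρ g⁻¹ v) w = B v w := LinearMap.congr_fun (hf' g) v
    have h4 : B v (ρ' g w) = B (ρ g⁻¹ v) w := by
      rw [← hinv g (ρ g⁻¹ v) w, ← Module.End.mul_apply, ← map_mul, mul_inv_cancel, map_one, Module.End.one_apply]
    rw [map_sub, h4, h3, sub_self]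
  exact (Submodule.finrank_mono hle).trans (Submodule.finrank_map_le (B.flip : V' →ₗ[K] Module.Dual K V) ρ'.invariants)

/-- fixed spaces of elements of order prime to the characteristic: cocycles are coboundaries -/
theorem mem_range_of_cocycle {W : Type*} [AddCommGroup W] [Module K W] (T : Module.End K W) {n : ℕ} (hn : (n : K) ≠ 0)
    (d : ℕ → W) (h0 : d 0 = 0) (hper : d n = 0) (hd : ∀ k, T (d k) = d (k + 1) - d 1) :
    d 1 ∈ LinearMap.range (T - 1) := by
  have hs : ∑ k ∈ Finset.range n, d (k + 1) = ∑ k ∈ Finset.range n, d k := by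
    have e1 := Finset.sum_range_succ d n
    have e2 := Finset.sum_range_succ' d n
    rw [h0] at e2
    rw [hper] at e1
    rw [e1] at e2
    rw [add_zero, add_zero] at e2
    exact e2.symm
  have hT : T (∑ k ∈ Finset.range n, d k) = ∑ k ∈ Finset.range n, d k - (n : K) • d 1 := by
    rw [map_sum, Finset.sum_congr rfl fun k _ => hd k, Finset.sum_sub_distrib, hs, Finset.sum_const, Finset.card_range,
      Nat.cast_smul_eq_nsmul]
  refine ⟨-((n : K)⁻¹ • ∑ k ∈ Finset.range n, d k), ?_⟩
  rw [LinearMap.sub_apply, Module.End.one_apply, map_neg, map_smul, hT, smul_sub, smul_smul, inv_mul_cancel₀ hn, one_smul]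
  abel

end

end Cfsg.Agent.H505.E6Three
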