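import Cfsg.Agent.H505.E6Three.Perm
import Cfsg.Agent.H505.E6Three.Scott

/-!
# S5927, `six_three` (K7): the six conjugates of a vector fixed by `A₅`, and the transfer
-/

set_option autoImplicit false

namespace Cfsg.Agent.H505.E6Three

open Module Cfsg.Agent.H952.F4

section
variable {K V : Type*} [Field K] [AddCommGroup V] [Module K V]

theorem rmul (ρ : Representation K A6 V) (g h : A6) (v : V) : ρ (g * h) v = ρ g (ρ h v) := by
  rw [map_mul]; rfl

theorem rone (ρ : Representation K A6 V) (v : V) : ρ 1 v = v := by rw [map_one]; rfl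

theorem rinv (ρ : Representation K A6 V) (g : A6) (v : V) : ρ g⁻¹ (ρ g v) = v := by
  rw [← rmul, inv_mul_cancel, rone]

/-- the vectors fixed by the stabilizer of the point 5 -/
def Fx (ρ : Representation K A6 V) : Submodule K V where
  carrier := {v | ∀ g : A6, (g : Equiv.Perm (Fin 6)) 5 = 5 → ρ g v = v}
  add_mem' := by
    intro a b ha hb g hg
    rw [map_add, ha g hg, hb g hg]
  zero_mem' := by
    intro g _
    rw [map_zero]
  smul_mem' := by
    intro c a ha g hg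
    rw [map_smul, ha g hg]

theorem mem_Fx {ρ : Representation K A6 V} {v : V} : v ∈ Fx ρ ↔ ∀ g : A6, (g : Equiv.Perm (Fin 6)) 5 = 5 → ρ g v = v :=
  Iff.rfl

/-- a transversal -/
def tr : Fin 6 → A6 := ![s 0, s 1, s 2, s 3, s 0 * s 0, 1]

theorem tr_five : ∀ j : Fin 6, (tr j : Equiv.Perm (Fin 6)) 5 = j := by decide

/-- the six conjugates -/
def cv (ρ : Representation K A6 V) (v : V) (j : Fin 6) : V := ρ (tr j) v

theorem cv_five (ρ : Representation K A6 V) (v : V) : cv ρ v 5 = v := rone ρ v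

theorem cv_act {ρ : Representation K A6 V} {v : V} (hv : v ∈ Fx ρ) (g : A6) (j : Fin 6) :
    ρ g (cv ρ v j) = cv ρ v ((g : Equiv.Perm (Fin 6)) j) := by
  have h1 : (((tr ((g : Equiv.Perm (Fin 6)) j))⁻¹ * g * tr j : A6) : Equiv.Perm (Fin 6)) 5 = 5 := by
    change ((tr ((g : Equiv.Perm (Fin 6)) j) : Equiv.Perm (Fin 6)))⁻¹ ((g : Equiv.Perm (Fin 6))
      ((tr j : Equiv.Perm (Fin 6)) 5)) = 5
    rw [tr_five, Equiv.Perm.inv_eq_iff_eq, tr_five]
  have h2 := hv _ h1
  have h3 := congrArg (ρ (tr ((g : Equiv.Perm (Fin 6)) j))) h2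
  rw [← rmul] at h3
  have e : tr ((g : Equiv.Perm (Fin 6)) j) * ((tr ((g : Equiv.Perm (Fin 6)) j))⁻¹ * g * tr j) = g * tr j := by group
  rw [e, rmul] at h3
  exact h3

theorem cv_add (ρ : Representation K A6 V) (v w : V) (j : Fin 6) : cv ρ (v + w) j = cv ρ v j + cv ρ w j := map_add _ _ _
theorem cv_smul (ρ : Representation K A6 V) (c : K) (v : V) (j : Fin 6) : cv ρ (c • v) j = c • cv ρ v j := map_smul _ _ _

theorem cv_sum {ρ : Representation K A6 V} (hi : ρ.invariants = ⊥) {v : V} (hv : v ∈ Fx ρ) : ∑ j, cv ρ v j = 0 := by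
  rw [← Submodule.mem_bot K, ← hi, Representation.mem_invariants]
  intro g
  rw [map_sum, Finset.sum_congr rfl fun j _ => cv_act hv g j]
  exact Equiv.sum_comp (g : Equiv.Perm (Fin 6)) (cv ρ v)

/-- the averaging of the two point stabilizer `D₁₀ = ⟨zz, w0⟩` -/
def D : Fin 5 → Bool → A6 := fun i b => zz ^ (i : ℕ) * cond b w0 1

theorem sum_D (ρ : Representation K A6 V) {v : V} (hv : v ∈ Fx ρ) (j : Fin 6) (hj : j ≠ 5) :
    ∑ i, ∑ b, ρ (D i b) (cv ρ v j) = (2 : K) • ∑ k : Fin 5, cv ρ v k.castSucc := by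
  have key : ∀ j : Fin 6, j ≠ 5 → ∀ b : Bool, ∃ e : Equiv.Perm (Fin 5), ∀ i : Fin 5,
      (D i b : Equiv.Perm (Fin 6)) j = (e i).castSucc := by decide +kernel
  have h1 : ∀ b : Bool, ∑ i, ρ (D i b) (cv ρ v j) = ∑ k : Fin 5, cv ρ v k.castSucc := by
    intro b
    obtain ⟨e, he⟩ := key j hj b
    rw [Finset.sum_congr rfl fun i _ => cv_act hv (D i b) j, Finset.sum_congr rfl fun i _ => by rw [he i]]
    exact Equiv.sum_comp e (fun k : Fin 5 => cv ρ v k.castSucc)
  rw [Finset.sum_comm, Finset.sum_congr rfl fun b _ => h1 b, Fintype.sum_bool, two_smul]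

end

end Cfsg.Agent.H505.E6Three
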